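import Mathlib

/-!
# Integer combinations of multiplicative relations, checked through base-`B` encodings (helper17)

A relation is a pair of lists of indices `(Lp, Ln)` with `∏ u i (i ∈ Lp) = ∏ u i (i ∈ Ln)` in a
commutative group.  Lists are encoded as natural numbers `∑ B ^ i`; a combination of relations
with natural coefficients is computed on the encodings, and uniqueness of base-`B` digits turns
an identity of encodings into `u k = 1`.
-/

set_option autoImplicit false

namespace Cfsg.Agent.Helper17.SchurCos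

section Enc

variable {V : Type*} [CommGroup V]

/-- base-`B` encoding of a list of indices -/
def encL (B : ℕ) (L : List ℕ) : ℕ := (L.map (fun i => B ^ i)).sum

/-- base-`B` encoding of a vector of exponents -/
def encF (B N : ℕ) (c : ℕ → ℕ) : ℕ := ∑ i ∈ Finset.range N, c i * B ^ i

/-- value of a vector of exponents -/
def pvF (u : ℕ → V) (N : ℕ) (c : ℕ → ℕ) : V := ∏ i ∈ Finset.range N, u i ^ c i

theorem encL_eq (B N : ℕ) (L : List ℕ) (hL : ∀ i ∈ L, i < N) :
    encL B L = encF B N (fun i => L.count i) := by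
  induction L with
  | nil => simp [encL, encF]
  | cons a L ih =>
    have ha : a < N := hL a List.mem_cons_self
    have ih' := ih (fun i hi => hL i (List.mem_cons_of_mem _ hi))
    unfold encL at ih' ⊢
    rw [List.map_cons, List.sum_cons, ih']
    unfold encF
    have e : ∀ i ∈ Finset.range N, (a :: L).count i * B ^ i =
        (if i = a then B ^ i else 0) + L.count i * B ^ i := by
      intro i _
      rw [List.count_cons]
      by_cases h : i = a
      · subst h
        simp [add_mul, add_comm]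
      · have h' : ¬ a = i := fun h'' => h h''.symm
        simp [h, h']
    rw [Finset.sum_congr rfl e, Finset.sum_add_distrib, Finset.sum_ite_eq' (Finset.range N) a,
      if_pos (Finset.mem_range.2 ha)]

theorem prod_eq (u : ℕ → V) (N : ℕ) (L : List ℕ) (hL : ∀ i ∈ L, i < N) :
    (L.map u).prod = pvF u N (fun i => L.count i) := by
  induction L with
  | nil => simp [pvF]
  | cons a L ih =>
    have ha : a < N := hL a List.mem_cons_self
    have ih' := ih (fun i hi => hL i (List.mem_cons_of_mem _ hi))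
    rw [List.map_cons, List.prod_cons, ih']
    unfold pvF
    have e : ∀ i ∈ Finset.range N, u i ^ (a :: L).count i =
        (if i = a then u i else 1) * u i ^ L.count i := by
      intro i _
      rw [List.count_cons]
      by_cases h : i = a
      · subst h
        simp [pow_succ, mul_comm]
      · have h' : ¬ a = i := fun h'' => h h''.symm
        simp [h, h']
    rw [Finset.prod_congr rfl e, Finset.prod_mul_distrib, Finset.prod_ite_eq' (Finset.range N) a,
      if_pos (Finset.mem_range.2 ha)]

theorem encF_succ (B N : ℕ) (c : ℕ → ℕ) :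
    encF B (N + 1) c = c 0 + B * encF B N (fun i => c (i + 1)) := by
  unfold encF
  rw [Finset.sum_range_succ', Finset.mul_sum, pow_zero, mul_one, add_comm]
  congr 1
  apply Finset.sum_congr rfl
  intro i _
  rw [pow_succ]
  ring

theorem encF_inj (B : ℕ) : ∀ (N : ℕ) (c d : ℕ → ℕ), (∀ i, c i < B) → (∀ i, d i < B) →
    encF B N c = encF B N d → ∀ i < N, c i = d i := by
  intro N
  induction N with
  | zero => intro c d _ _ _ i hi; omega
  | succ N ih =>
    intro c d hc hd h i hi
    rw [encF_succ, encF_succ] at h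
    have h0 : c 0 = d 0 := by
      have := congrArg (· % B) h
      simp only [Nat.add_mul_mod_self_left] at this
      rwa [Nat.mod_eq_of_lt (hc 0), Nat.mod_eq_of_lt (hd 0)] at this
    have hB : 0 < B := lt_of_le_of_lt (Nat.zero_le _) (hc 0)
    have h1 : encF B N (fun i => c (i + 1)) = encF B N (fun i => d (i + 1)) := by
      rw [h0] at h
      exact Nat.eq_of_mul_eq_mul_left hB (Nat.add_left_cancel h)
    rcases i with _ | i
    · exact h0
    · exact ih _ _ (fun i => hc (i + 1)) (fun i => hd (i + 1)) h1 i (by omega)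

/-- the invariant of the accumulation -/
def Inv (u : ℕ → V) (B N : ℕ) (P Q β : ℕ) : Prop :=
  ∃ cP cQ : ℕ → ℕ, P = encF B N cP ∧ Q = encF B N cQ ∧ pvF u N cP = pvF u N cQ ∧
    (∀ i, cP i ≤ β) ∧ (∀ i, cQ i ≤ β)

/-- a row `(a⁺, a⁻, len)` comes from a relation -/
def Good (u : ℕ → V) (B N : ℕ) (r : ℕ × ℕ × ℕ) : Prop :=
  ∃ Lp Ln : List ℕ, r.1 = encL B Lp ∧ r.2.1 = encL B Ln ∧ Lp.length + Ln.length ≤ r.2.2 ∧
    (∀ i ∈ Lp, i < N) ∧ (∀ i ∈ Ln, i < N) ∧ (Lp.map u).prod = (Ln.map u).prod

theorem inv_zero (u : ℕ → V) (B N : ℕ) : Inv u B N 0 0 0 :=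
  ⟨fun _ => 0, fun _ => 0, by simp [encF], by simp [encF], rfl, fun _ => le_rfl, fun _ => le_rfl⟩

theorem encF_comb (B N : ℕ) (c c1 c2 : ℕ → ℕ) (lp ln : ℕ) :
    encF B N (fun i => c i + lp * c1 i + ln * c2 i) =
      encF B N c + lp * encF B N c1 + ln * encF B N c2 := by
  unfold encF
  rw [Finset.mul_sum, Finset.mul_sum, ← Finset.sum_add_distrib, ← Finset.sum_add_distrib]
  apply Finset.sum_congr rfl
  intro i _
  ring

theorem pvF_comb (u : ℕ → V) (N : ℕ) (c c1 c2 : ℕ → ℕ) (lp ln : ℕ) :
    pvF u N (fun i => c i + lp * c1 i + ln * c2 i) =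
      pvF u N c * pvF u N c1 ^ lp * pvF u N c2 ^ ln := by
  unfold pvF
  rw [← Finset.prod_pow, ← Finset.prod_pow, ← Finset.prod_mul_distrib, ← Finset.prod_mul_distrib]
  apply Finset.prod_congr rfl
  intro i _
  rw [pow_add, pow_add, mul_comm lp, mul_comm ln, pow_mul, pow_mul]

theorem inv_step (u : ℕ → V) (B N : ℕ) {P Q β : ℕ} (h : Inv u B N P Q β) {r : ℕ × ℕ × ℕ}
    (hr : Good u B N r) (lp ln : ℕ) :
    Inv u B N (P + lp * r.1 + ln * r.2.1) (Q + lp * r.2.1 + ln * r.1) (β + (lp + ln) * r.2.2) := by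
  obtain ⟨cP, cQ, hP, hQ, hv, bP, bQ⟩ := h
  obtain ⟨Lp, Ln, e1, e2, hlen, hLp, hLn, hval⟩ := hr
  have hcp : ∀ i, Lp.count i ≤ Lp.length := fun i => List.count_le_length
  have hcn : ∀ i, Ln.count i ≤ Ln.length := fun i => List.count_le_length
  refine ⟨fun i => cP i + lp * Lp.count i + ln * Ln.count i,
    fun i => cQ i + lp * Ln.count i + ln * Lp.count i, ?_, ?_, ?_, ?_, ?_⟩
  · rw [encF_comb, ← hP, ← encL_eq B N Lp hLp, ← encL_eq B N Ln hLn, e1, e2]
  · rw [encF_comb, ← hQ, ← encL_eq B N Lp hLp, ← encL_eq B N Ln hLn, e1, e2]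
  · rw [pvF_comb, pvF_comb, hv, ← prod_eq u N Lp hLp, ← prod_eq u N Ln hLn, hval]
  · intro i
    have h1 : lp * Lp.count i ≤ lp * r.2.2 :=
      Nat.mul_le_mul_left _ ((hcp i).trans (by omega))
    have h2 : ln * Ln.count i ≤ ln * r.2.2 :=
      Nat.mul_le_mul_left _ ((hcn i).trans (by omega))
    have := bP i
    show cP i + lp * Lp.count i + ln * Ln.count i ≤ β + (lp + ln) * r.2.2
    rw [add_mul]
    omega
  · intro i
    have h1 : lp * Ln.count i ≤ lp * r.2.2 :=
      Nat.mul_le_mul_left _ ((hcn i).trans (by omega))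
    have h2 : ln * Lp.count i ≤ ln * r.2.2 :=
      Nat.mul_le_mul_left _ ((hcp i).trans (by omega))
    have := bQ i
    show cQ i + lp * Ln.count i + ln * Lp.count i ≤ β + (lp + ln) * r.2.2
    rw [add_mul]
    omega

theorem inv_final (u : ℕ → V) (B N : ℕ) {P Q β k : ℕ} (h : Inv u B N P Q β)
    (hPQ : P = Q + B ^ k) (hk : k < N) (hβ : β + 1 < B) : u k = 1 := by
  obtain ⟨cP, cQ, hP, hQ, hv, bP, bQ⟩ := h
  have e : Q + B ^ k = encF B N (fun i => cQ i + if i = k then 1 else 0) := by
    rw [hQ]
    unfold encF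
    have : ∀ i ∈ Finset.range N, (cQ i + if i = k then 1 else 0) * B ^ i =
        cQ i * B ^ i + if i = k then B ^ i else 0 := by
      intro i _
      by_cases hi : i = k <;> simp [hi, add_mul]
    rw [Finset.sum_congr rfl this, Finset.sum_add_distrib, Finset.sum_ite_eq' (Finset.range N) k,
      if_pos (Finset.mem_range.2 hk)]
  have key := encF_inj B N cP (fun i => cQ i + if i = k then 1 else 0)
    (fun i => lt_of_le_of_lt (bP i) (by omega))
    (fun i => by
      have := bQ i
      show cQ i + (if i = k then 1 else 0) < B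
      split_ifs <;> omega)
    (by rw [← hP, hPQ, e])
  have hv' : pvF u N cP = pvF u N cQ * u k := by
    unfold pvF
    have : ∀ i ∈ Finset.range N, u i ^ cP i = u i ^ cQ i * if i = k then u i else 1 := by
      intro i hi
      rw [key i (Finset.mem_range.1 hi)]
      by_cases hik : i = k <;> simp [hik, pow_succ]
    rw [Finset.prod_congr rfl this, Finset.prod_mul_distrib,
      Finset.prod_ite_eq' (Finset.range N) k, if_pos (Finset.mem_range.2 hk)]
  rw [hv] at hv'
  exact (mul_eq_left.1 hv'.symm)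

/-- accumulate a sparse combination: `rows` are `(a⁺, a⁻, len)`, entries of `lam` are
`(skip, λ⁺, λ⁻)` -/
def comb : List (ℕ × ℕ × ℕ) → List (ℕ × ℕ × ℕ) → ℕ → ℕ → ℕ → Option (ℕ × ℕ × ℕ)
  | _, [], P, Q, β => some (P, Q, β)
  | rows, (s, lp, ln) :: lam, P, Q, β =>
    match rows.drop s with
    | [] => none
    | (ap, an, len) :: rows' =>
      comb rows' lam (P + lp * ap + ln * an) (Q + lp * an + ln * ap) (β + (lp + ln) * len)

theorem comb_sound (u : ℕ → V) (B N : ℕ) : ∀ (lam rows : List (ℕ × ℕ × ℕ)) (P Q β : ℕ),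
    (∀ r ∈ rows, Good u B N r) → Inv u B N P Q β → ∀ res, comb rows lam P Q β = some res →
    Inv u B N res.1 res.2.1 res.2.2 := by
  intro lam
  induction lam with
  | nil =>
    intro rows P Q β _ h res hres
    rw [comb] at hres
    cases hres
    exact h
  | cons a lam ih =>
    intro rows P Q β hrows h res hres
    obtain ⟨s, lp, ln⟩ := a
    rw [comb] at hres
    cases hd : rows.drop s with
    | nil => rw [hd] at hres; cases hres
    | cons r rows' =>
      rw [hd] at hres
      obtain ⟨ap, an, len⟩ := r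
      have hmem : ∀ r' ∈ (ap, an, len) :: rows', Good u B N r' := by
        intro r' hr'
        rw [← hd] at hr'
        exact hrows r' (List.mem_of_mem_drop hr')
      exact ih rows' _ _ _ (fun r' hr' => hmem r' (List.mem_cons_of_mem _ hr'))
        (inv_step u B N h (hmem _ List.mem_cons_self) lp ln) res hres

/-- check a list of targets with their combinations -/
def checkTargets (B : ℕ) (rows : List (ℕ × ℕ × ℕ)) (cert : List (ℕ × List (ℕ × ℕ × ℕ))) : Bool :=
  cert.all fun kc => match comb rows kc.2 0 0 0 with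
    | some (P, Q, β) => P == Q + B ^ kc.1 && decide (β + 1 < B)
    | none => false

theorem checkTargets_sound (u : ℕ → V) (B N : ℕ) (rows : List (ℕ × ℕ × ℕ))
    (hrows : ∀ r ∈ rows, Good u B N r) (cert : List (ℕ × List (ℕ × ℕ × ℕ)))
    (h : checkTargets B rows cert = true) : ∀ k ∈ cert.map Prod.fst, k < N → u k = 1 := by
  intro k hk hkN
  obtain ⟨kc, hkc, rfl⟩ := List.mem_map.1 hk
  have h1 := List.all_eq_true.1 h kc hkc
  cases hc : comb rows kc.2 0 0 0 with
  | none => rw [hc] at h1; cases h1
  | some res =>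
    rw [hc] at h1
    obtain ⟨P, Q, β⟩ := res
    simp only [Bool.and_eq_true, beq_iff_eq, decide_eq_true_eq] at h1
    exact inv_final u B N (comb_sound u B N kc.2 rows 0 0 0 hrows (inv_zero u B N) _ hc) h1.1 hkN h1.2

end Enc

end Cfsg.Agent.Helper17.SchurCos
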