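import Mathlib
import Cfsg.Prelude.Def_KGroupFacts
import Cfsg.Agent.Helper17.J1.Grp
import Cfsg.Agent.Helper17.SchurCos.Enc

/-!
# Stem extensions through an abelianised Reidemeister–Schreier system (helper17)

Let `G = ⟨a, b⟩`, `H ≤ G` with all stem extensions of `H` injective, and `σ : E → G` a finite
stem extension.  The generators lift canonically to `X, Y ∈ E` through expressions as products
of commutators; the preimage `Ĥ` of `H` is generated by Schreier elements of a coset table, and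
every homomorphism `φ : Ĥ → V` to a commutative group satisfies the loop relations of the
relators.  An integer certificate that these relations kill every Schreier generator shows that
`Ĥ` is perfect, hence a stem extension of `H`, hence `ker σ = 1`.
-/

set_option autoImplicit false

namespace Cfsg.Agent.Helper17.SchurCos

open Cfsg.Agent.Helper17.J1

universe u

section Words

variable {K : Type*} {K' : Type*} [Group K] [Group K']

theorem map_cols (σ : K →* K') (x y : K) (l : ℕ) : σ (cols x y l) = cols (σ x) (σ y) l := by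
  rcases l with _ | _ | _ | _ | l <;> simp [cols]

theorem map_ev (σ : K →* K') (x y : K) (w : List ℕ) : σ (ev x y w) = ev (σ x) (σ y) w := by
  induction w with
  | nil => simp [ev]
  | cons l w ih => rw [ev_cons, ev_cons, map_mul, ih, map_cols]

/-- value of a product of commutators of words -/
def cev (x y : K) (L : List (List ℕ × List ℕ)) : K :=
  (L.map (fun p => ev x y p.1 * ev x y p.2 * (ev x y p.1)⁻¹ * (ev x y p.2)⁻¹)).prod

/-- the word of a product of commutators of words -/
def cw : List (List ℕ × List ℕ) → List ℕ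
  | [] => []
  | p :: L => p.1 ++ p.2 ++ invw p.1 ++ invw p.2 ++ cw L

theorem ev_cw (x y : K) (L : List (List ℕ × List ℕ)) : ev x y (cw L) = cev x y L := by
  induction L with
  | nil => rfl
  | cons p L ih =>
    rw [cw, ev_append, ev_append, ev_append, ev_append, ev_invw, ev_invw, ih]
    simp [cev]

theorem map_cev (σ : K →* K') (x y : K) (L : List (List ℕ × List ℕ)) :
    σ (cev x y L) = cev (σ x) (σ y) L := by
  induction L with
  | nil => simp [cev]
  | cons p L ih =>
    unfold cev at ih ⊢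
    rw [List.map_cons, List.prod_cons, List.map_cons, List.prod_cons, map_mul, ih,
      map_mul, map_mul, map_mul, map_inv, map_inv, map_ev, map_ev]

theorem comm_eq_of_map_eq (σ : K →* K') (hc : σ.ker ≤ Subgroup.center K) {g g' h h' : K}
    (hg : σ g = σ g') (hh : σ h = σ h') :
    g * h * g⁻¹ * h⁻¹ = g' * h' * g'⁻¹ * h'⁻¹ := by
  have hk : g⁻¹ * g' ∈ Subgroup.center K :=
    hc (by rw [MonoidHom.mem_ker, map_mul, map_inv, hg, inv_mul_cancel])
  have hk' : h⁻¹ * h' ∈ Subgroup.center K :=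
    hc (by rw [MonoidHom.mem_ker, map_mul, map_inv, hh, inv_mul_cancel])
  rw [Subgroup.mem_center_iff] at hk hk'
  have e1 : g' = g * (g⁻¹ * g') := by group
  have e2 : h' = h * (h⁻¹ * h') := by group
  generalize g⁻¹ * g' = k at hk e1
  generalize h⁻¹ * h' = k' at hk' e2
  subst e1 e2
  have c1 : ∀ m : K, k * m * k⁻¹ = m := fun m => by rw [← hk m, mul_inv_cancel_right]
  have c2 : ∀ m : K, k' * m * k'⁻¹ = m := fun m => by rw [← hk' m, mul_inv_cancel_right]
  symm
  calc g * k * (h * k') * (g * k)⁻¹ * (h * k')⁻¹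
      = g * (k * (h * k') * k⁻¹) * g⁻¹ * (h * k')⁻¹ := by group
    _ = g * (h * k') * g⁻¹ * (h * k')⁻¹ := by rw [c1]
    _ = g * h * (k' * g⁻¹ * k'⁻¹) * h⁻¹ := by group
    _ = g * h * g⁻¹ * h⁻¹ := by rw [c2]

theorem cev_congr (σ : K →* K') (hc : σ.ker ≤ Subgroup.center K) {x y x' y' : K}
    (hx : σ x = σ x') (hy : σ y = σ y') (L : List (List ℕ × List ℕ)) :
    cev x y L = cev x' y' L := by
  induction L with
  | nil => rfl
  | cons p L ih =>
    unfold cev at ih ⊢
    rw [List.map_cons, List.prod_cons, List.map_cons, List.prod_cons, ih]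
    congr 1
    apply comm_eq_of_map_eq σ hc
    · rw [map_ev, map_ev, hx, hy]
    · rw [map_ev, map_ev, hx, hy]

/-- canonical lifts of the generators to a stem extension -/
theorem exists_lifts {E G : Type*} [Group E] [Group G] (σ : E →* G)
    (hσ : Cfsg.IsStemExtension σ) (a b : G) (hgen : Subgroup.closure {a, b} = ⊤)
    (CA CB : List (List ℕ × List ℕ)) (hCA : cev a b CA = a) (hCB : cev a b CB = b) :
    ∃ X Y : E, σ X = a ∧ σ Y = b ∧ Subgroup.closure {X, Y} = ⊤ ∧ cev X Y CA = X ∧
      cev X Y CB = Y := by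
  obtain ⟨hs, hc, hd⟩ := hσ
  obtain ⟨e1, he1⟩ := hs a
  obtain ⟨e2, he2⟩ := hs b
  have hX : σ (cev e1 e2 CA) = a := by rw [map_cev, he1, he2, hCA]
  have hY : σ (cev e1 e2 CB) = b := by rw [map_cev, he1, he2, hCB]
  refine ⟨cev e1 e2 CA, cev e1 e2 CB, hX, hY, ?_,
    cev_congr σ hc (hX.trans he1.symm) (hY.trans he2.symm) CA,
    cev_congr σ hc (hX.trans he1.symm) (hY.trans he2.symm) CB⟩
  set X := cev e1 e2 CA
  set Y := cev e1 e2 CB
  have hmap : (Subgroup.closure {X, Y}).map σ = ⊤ := by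
    rw [MonoidHom.map_closure, Set.image_pair, hX, hY, hgen]
  have hex : ∀ e : E, ∃ e0 ∈ Subgroup.closure {X, Y}, σ e0 = σ e := by
    intro e
    have : σ e ∈ (Subgroup.closure {X, Y}).map σ := by rw [hmap]; exact Subgroup.mem_top _
    obtain ⟨e0, h0, h1⟩ := Subgroup.mem_map.1 this
    exact ⟨e0, h0, h1⟩
  have hcomm : commutator E ≤ Subgroup.closure {X, Y} := by
    rw [commutator_def, Subgroup.commutator_le]
    intro g _ h _
    obtain ⟨g0, hg0, hg1⟩ := hex g
    obtain ⟨h0, hh0, hh1⟩ := hex h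
    rw [commutatorElement_def, comm_eq_of_map_eq σ hc hg1.symm hh1.symm]
    exact Subgroup.mul_mem _ (Subgroup.mul_mem _ (Subgroup.mul_mem _ hg0 hh0)
      (Subgroup.inv_mem _ hg0)) (Subgroup.inv_mem _ hh0)
  rw [eq_top_iff]
  intro e _
  obtain ⟨e0, h0, h1⟩ := hex e
  have hk : e0⁻¹ * e ∈ σ.ker := by rw [MonoidHom.mem_ker, map_mul, map_inv, h1, inv_mul_cancel]
  have := (Subgroup.closure {X, Y}).mul_mem h0 (hcomm (hd hk))
  rwa [mul_inv_cancel_left] at this

end Words

section Main

variable {G : Type u} [Group G] {E : Type u} [Group E]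

/-- the lifted representative of a coset -/
def th (X Y : E) (t : ℕ → List ℕ) (c : ℕ) : E := ev X Y (t c)

/-- the Schreier element of a coset and a letter -/
def sch (X Y : E) (t : ℕ → List ℕ) (tab : ℕ → ℕ → ℕ) (c l : ℕ) : E :=
  th X Y t c * cols X Y l * (th X Y t (tab c l))⁻¹

/-- the coset data, seen from the extension -/
structure Pkg (σ : E →* G) (H : Subgroup G) (X Y : E) (a b : G) (n : ℕ) (t : ℕ → List ℕ)
    (tab : ℕ → ℕ → ℕ) : Prop where
  hX : σ X = a
  hY : σ Y = b
  hgen : Subgroup.closure {X, Y} = ⊤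
  ht0 : t 0 = []
  hn : 0 < n
  htab : ∀ c < n, ∀ l < 4, tab c l < n
  hS : ∀ c < n, ∀ l < 4, ev a b (t c) * cols a b l * (ev a b (t (tab c l)))⁻¹ ∈ H
  hT : ∀ c < n, ev a b (t c) ∈ H → c = 0

variable {σ : E →* G} {H : Subgroup G} {X Y : E} {a b : G} {n : ℕ} {t : ℕ → List ℕ}
  {tab : ℕ → ℕ → ℕ}

theorem map_th (hp : Pkg σ H X Y a b n t tab) (c : ℕ) : σ (th X Y t c) = ev a b (t c) := by
  rw [th, map_ev, hp.hX, hp.hY]

theorem sch_mem (hp : Pkg σ H X Y a b n t tab) {c l : ℕ} (hc : c < n) (hl : l < 4) :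
    sch X Y t tab c l ∈ H.comap σ := by
  rw [Subgroup.mem_comap, sch, map_mul, map_mul, map_inv, map_th hp, map_th hp, map_cols,
    hp.hX, hp.hY]
  exact hp.hS c hc l hl

/-- Schreier's lemma -/
theorem schreier (hp : Pkg σ H X Y a b n t tab) :
    H.comap σ ≤ Subgroup.closure {e | ∃ c < n, ∃ l < 4, e = sch X Y t tab c l} := by
  set S := Subgroup.closure {e | ∃ c < n, ∃ l < 4, e = sch X Y t tab c l} with hS
  have hSle : S ≤ H.comap σ := by
    rw [hS, Subgroup.closure_le]
    rintro e ⟨c, hc, l, hl, rfl⟩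
    exact sch_mem hp hc hl
  have gen : ∀ c < n, ∀ l < 4, ∃ c' < n, th X Y t c * cols X Y l * (th X Y t c')⁻¹ ∈ S :=
    fun c hc l hl => ⟨tab c l, hp.htab c hc l hl, Subgroup.subset_closure ⟨c, hc, l, hl, rfl⟩⟩
  have key : ∀ e : E, ∀ c < n, ∃ c' < n, th X Y t c * e * (th X Y t c')⁻¹ ∈ S := by
    intro e
    have he : e ∈ Subgroup.closure {X, Y} := by rw [hp.hgen]; exact Subgroup.mem_top _
    induction he using Subgroup.closure_induction'' with
    | one =>
      intro c hc
      exact ⟨c, hc, by rw [mul_one, mul_inv_cancel]; exact S.one_mem⟩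
    | mem x hx =>
      intro c hc
      rcases hx with rfl | rfl
      · exact gen c hc 0 (by norm_num)
      · exact gen c hc 2 (by norm_num)
    | inv_mem x hx =>
      intro c hc
      rcases hx with rfl | rfl
      · exact gen c hc 1 (by norm_num)
      · exact gen c hc 3 (by norm_num)
    | mul x y _ _ ihx ihy =>
      intro c hc
      obtain ⟨c1, hc1, h1⟩ := ihx c hc
      obtain ⟨c2, hc2, h2⟩ := ihy c1 hc1
      refine ⟨c2, hc2, ?_⟩
      have := S.mul_mem h1 h2
      have e : th X Y t c * x * (th X Y t c1)⁻¹ * (th X Y t c1 * y * (th X Y t c2)⁻¹) =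
          th X Y t c * (x * y) * (th X Y t c2)⁻¹ := by group
      rwa [e] at this
  intro h hh
  obtain ⟨c', hc', h1⟩ := key h 0 hp.hn
  have h0 : th X Y t 0 = 1 := by rw [th, hp.ht0]; rfl
  rw [h0, one_mul] at h1
  have h2 : th X Y t c' ∈ H.comap σ := by
    have := (H.comap σ).mul_mem ((H.comap σ).inv_mem (hSle h1)) hh
    rwa [mul_inv_rev, inv_inv, inv_mul_cancel_right] at this
  rw [Subgroup.mem_comap, map_th hp] at h2
  have h3 := hp.hT c' hc' h2
  subst h3
  rwa [h0, inv_one, mul_one] at h1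

section Hom

variable {V : Type*} [CommGroup V]

open Classical in
/-- extension of a homomorphism on the preimage by `1` -/
noncomputable def ext (φ : ↥(H.comap σ) →* V) (e : E) : V :=
  if h : e ∈ H.comap σ then φ ⟨e, h⟩ else 1

theorem ext_of_mem (φ : ↥(H.comap σ) →* V) {e : E} (h : e ∈ H.comap σ) :
    ext φ e = φ ⟨e, h⟩ := by
  rw [ext, dif_pos h]

theorem ext_one (φ : ↥(H.comap σ) →* V) : ext φ 1 = 1 := by
  rw [ext_of_mem φ (H.comap σ).one_mem]
  exact map_one φ

theorem ext_mul (φ : ↥(H.comap σ) →* V) {e1 e2 : E} (h1 : e1 ∈ H.comap σ)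
    (h2 : e2 ∈ H.comap σ) : ext φ (e1 * e2) = ext φ e1 * ext φ e2 := by
  rw [ext_of_mem φ h1, ext_of_mem φ h2, ext_of_mem φ ((H.comap σ).mul_mem h1 h2), ← map_mul]
  rfl

theorem ext_inv (φ : ↥(H.comap σ) →* V) {e : E} (h : e ∈ H.comap σ) :
    ext φ e⁻¹ = (ext φ e)⁻¹ := by
  rw [ext_of_mem φ h, ext_of_mem φ ((H.comap σ).inv_mem h), ← map_inv]
  rfl

/-- the unknowns: the values of the Schreier elements of the generators, then those of the
relators -/
noncomputable def unk (φ : ↥(H.comap σ) →* V) (X Y : E) (n : ℕ) (t : ℕ → List ℕ)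
    (tab : ℕ → ℕ → ℕ) (R : List (List ℕ)) (i : ℕ) : V :=
  if i < 2 * n then ext φ (sch X Y t tab (i / 2) (2 * (i % 2)))
  else ext φ (ev X Y (R.getD (i - 2 * n) []))

theorem unk_edge (φ : ↥(H.comap σ) →* V) (R : List (List ℕ)) {c g : ℕ} (hc : c < n)
    (hg : g < 2) : unk φ X Y n t tab R (2 * c + g) = ext φ (sch X Y t tab c (2 * g)) := by
  have h1 : (2 * c + g) / 2 = c := by omega
  have h2 : (2 * c + g) % 2 = g := by omega
  rw [unk, if_pos (by omega), h1, h2]

/-- trace a word through the coset table, collecting the edges (positive and negative) -/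
def walk (tab : ℕ → ℕ → ℕ) (tm : ℕ → Bool) : ℕ → List ℕ → ℕ × List ℕ × List ℕ
  | c, [] => (c, [], [])
  | c, l :: w =>
    if l % 2 = 0 then
      ((walk tab tm (tab c l) w).1,
        if tm (2 * c + l / 2) then (walk tab tm (tab c l) w).2.1
        else (2 * c + l / 2) :: (walk tab tm (tab c l) w).2.1,
        (walk tab tm (tab c l) w).2.2)
    else
      ((walk tab tm (tab c l) w).1, (walk tab tm (tab c l) w).2.1,
        if tm (2 * tab c l + l / 2) then (walk tab tm (tab c l) w).2.2
        else (2 * tab c l + l / 2) :: (walk tab tm (tab c l) w).2.2)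

theorem cols_odd (g : ℕ) (hg : g < 2) : cols X Y (2 * g + 1) = (cols X Y (2 * g))⁻¹ := by
  interval_cases g <;> simp [cols]

theorem walk_spec (hp : Pkg σ H X Y a b n t tab) (φ : ↥(H.comap σ) →* V) (R : List (List ℕ))
    (tm : ℕ → Bool) (hcons : ∀ c < n, ∀ g < 2, tab (tab c (2 * g + 1)) (2 * g) = c)
    (htm : ∀ c < n, ∀ g < 2, tm (2 * c + g) = true → sch X Y t tab c (2 * g) = 1) :
    ∀ (w : List ℕ), (∀ l ∈ w, l < 4) → ∀ c < n,
      (walk tab tm c w).1 < n ∧
      th X Y t c * ev X Y w * (th X Y t (walk tab tm c w).1)⁻¹ ∈ H.comap σ ∧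
      ext φ (th X Y t c * ev X Y w * (th X Y t (walk tab tm c w).1)⁻¹) *
        ((walk tab tm c w).2.2.map (unk φ X Y n t tab R)).prod =
        ((walk tab tm c w).2.1.map (unk φ X Y n t tab R)).prod ∧
      (∀ i ∈ (walk tab tm c w).2.1, i < 2 * n) ∧ (∀ i ∈ (walk tab tm c w).2.2, i < 2 * n) := by
  intro w
  induction w with
  | nil =>
    intro _ c hc
    refine ⟨hc, ?_, ?_, ?_, ?_⟩
    · show th X Y t c * ev X Y [] * (th X Y t c)⁻¹ ∈ H.comap σ
      rw [ev_nil, mul_one, mul_inv_cancel]
      exact (H.comap σ).one_mem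
    · show ext φ (th X Y t c * ev X Y [] * (th X Y t c)⁻¹) * 1 = 1
      rw [ev_nil, mul_one, mul_one, mul_inv_cancel, ext_one]
    · intro i hi; cases hi
    · intro i hi; cases hi
  | cons l w ih =>
    intro hw c hc
    have hl : l < 4 := hw l List.mem_cons_self
    have hc' : tab c l < n := hp.htab c hc l hl
    obtain ⟨i1, i2, i3, i4, i5⟩ := ih (fun l' hl' => hw l' (List.mem_cons_of_mem _ hl')) (tab c l) hc'
    have hs : sch X Y t tab c l ∈ H.comap σ := sch_mem hp hc hl
    have e : ∀ d : ℕ, th X Y t c * ev X Y (l :: w) * (th X Y t d)⁻¹ =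
        sch X Y t tab c l * (th X Y t (tab c l) * ev X Y w * (th X Y t d)⁻¹) := by
      intro d
      rw [ev_cons, sch]
      group
    obtain ⟨g, hg, rfl | rfl⟩ : ∃ g < 2, l = 2 * g ∨ l = 2 * g + 1 := ⟨l / 2, by omega, by omega⟩
    · -- a generator
      have w1 : walk tab tm c (2 * g :: w) = ((walk tab tm (tab c (2 * g)) w).1,
          if tm (2 * c + g) then (walk tab tm (tab c (2 * g)) w).2.1
          else (2 * c + g) :: (walk tab tm (tab c (2 * g)) w).2.1,
          (walk tab tm (tab c (2 * g)) w).2.2) := by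
        rw [walk, if_pos (by omega), Nat.mul_div_cancel_left g (by norm_num : 0 < 2)]
      rw [w1]
      refine ⟨i1, ?_, ?_, ?_, i5⟩
      · show th X Y t c * ev X Y (2 * g :: w) * (th X Y t (walk tab tm (tab c (2 * g)) w).1)⁻¹ ∈ _
        rw [e]
        exact (H.comap σ).mul_mem hs i2
      · show ext φ (th X Y t c * ev X Y (2 * g :: w) *
            (th X Y t (walk tab tm (tab c (2 * g)) w).1)⁻¹) * _ = _
        rw [e, ext_mul φ hs i2, mul_assoc, i3]
        by_cases htmv : tm (2 * c + g) = true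
        · rw [if_pos htmv, htm c hc g hg htmv, ext_one, one_mul]
        · rw [if_neg htmv, List.map_cons, List.prod_cons, unk_edge φ R hc hg]
      · intro i hi
        by_cases htmv : tm (2 * c + g) = true
        · rw [if_pos htmv] at hi
          exact i4 i hi
        · rw [if_neg htmv] at hi
          rcases List.mem_cons.1 hi with rfl | hi
          · omega
          · exact i4 i hi
    · -- an inverse
      have w1 : walk tab tm c ((2 * g + 1) :: w) = ((walk tab tm (tab c (2 * g + 1)) w).1,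
          (walk tab tm (tab c (2 * g + 1)) w).2.1,
          if tm (2 * tab c (2 * g + 1) + g) then (walk tab tm (tab c (2 * g + 1)) w).2.2
          else (2 * tab c (2 * g + 1) + g) :: (walk tab tm (tab c (2 * g + 1)) w).2.2) := by
        have : (2 * g + 1) / 2 = g := by omega
        rw [walk, if_neg (by omega), this]
      rw [w1]
      have hinv : sch X Y t tab c (2 * g + 1) = (sch X Y t tab (tab c (2 * g + 1)) (2 * g))⁻¹ := by
        rw [sch, sch, hcons c hc g hg, cols_odd g hg]
        group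
      have hs' : sch X Y t tab (tab c (2 * g + 1)) (2 * g) ∈ H.comap σ :=
        sch_mem hp hc' (by omega)
      refine ⟨i1, ?_, ?_, i4, ?_⟩
      · show th X Y t c * ev X Y ((2 * g + 1) :: w) *
            (th X Y t (walk tab tm (tab c (2 * g + 1)) w).1)⁻¹ ∈ _
        rw [e]
        exact (H.comap σ).mul_mem hs i2
      · show ext φ (th X Y t c * ev X Y ((2 * g + 1) :: w) *
            (th X Y t (walk tab tm (tab c (2 * g + 1)) w).1)⁻¹) * _ = _
        rw [e, ext_mul φ hs i2, hinv, ext_inv φ hs']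
        by_cases htmv : tm (2 * tab c (2 * g + 1) + g) = true
        · rw [if_pos htmv, htm _ hc' g hg htmv, ext_one, inv_one, one_mul, i3]
        · rw [if_neg htmv, List.map_cons, List.prod_cons, unk_edge φ R hc' hg, ← i3]
          rw [mul_comm (ext φ (sch X Y t tab (tab c (2 * g + 1)) (2 * g)))⁻¹, mul_assoc,
            inv_mul_cancel_left]
      · intro i hi
        by_cases htmv : tm (2 * tab c (2 * g + 1) + g) = true
        · rw [if_pos htmv] at hi
          exact i5 i hi
        · rw [if_neg htmv] at hi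
          rcases List.mem_cons.1 hi with rfl | hi
          · omega
          · exact i5 i hi

/-- the relation of the loop at `c` along the `j`-th word: the words of `R` first (each with
its own unknown), then those of `R1` -/
def eqn (tab : ℕ → ℕ → ℕ) (tm : ℕ → Bool) (n : ℕ) (R R1 : List (List ℕ)) (c j : ℕ) :
    List ℕ × List ℕ :=
  if j < R.length then
    ((walk tab tm c (R.getD j [])).2.1, (2 * n + j) :: (walk tab tm c (R.getD j [])).2.2)
  else
    ((walk tab tm c (R1.getD (j - R.length) [])).2.1,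
      (walk tab tm c (R1.getD (j - R.length) [])).2.2)

/-- the loop closes -/
def eqnOK (tab : ℕ → ℕ → ℕ) (tm : ℕ → Bool) (n : ℕ) (R R1 : List (List ℕ)) (c j : ℕ) : Bool :=
  decide (c < n) &&
    (if j < R.length then (walk tab tm c (R.getD j [])).1 == c
     else decide (j - R.length < R1.length) && (walk tab tm c (R1.getD (j - R.length) [])).1 == c)

theorem eqn_valid (hp : Pkg σ H X Y a b n t tab) (φ : ↥(H.comap σ) →* V) (R R1 : List (List ℕ))
    (tm : ℕ → Bool) (hcons : ∀ c < n, ∀ g < 2, tab (tab c (2 * g + 1)) (2 * g) = c)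
    (htm : ∀ c < n, ∀ g < 2, tm (2 * c + g) = true → sch X Y t tab c (2 * g) = 1)
    (hker : σ.ker ≤ Subgroup.center E)
    (hR4 : ∀ r ∈ R, ∀ l ∈ r, l < 4) (hR14 : ∀ r ∈ R1, ∀ l ∈ r, l < 4)
    (hR : ∀ r ∈ R, ev a b r = 1) (hR1 : ∀ r ∈ R1, ev X Y r = 1) (c j : ℕ)
    (hok : eqnOK tab tm n R R1 c j = true) :
    ((eqn tab tm n R R1 c j).1.map (unk φ X Y n t tab R)).prod =
        ((eqn tab tm n R R1 c j).2.map (unk φ X Y n t tab R)).prod ∧
      (∀ i ∈ (eqn tab tm n R R1 c j).1, i < 2 * n + R.length) ∧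
      (∀ i ∈ (eqn tab tm n R R1 c j).2, i < 2 * n + R.length) := by
  rw [eqnOK, Bool.and_eq_true, decide_eq_true_eq] at hok
  obtain ⟨hc, hok⟩ := hok
  by_cases hj : j < R.length
  · rw [if_pos hj, beq_iff_eq] at hok
    rw [eqn, if_pos hj]
    have hmem : R.getD j [] ∈ R := by
      rw [List.getD_eq_getElem _ _ hj]
      exact List.getElem_mem hj
    obtain ⟨_, i2, i3, i4, i5⟩ := walk_spec hp φ R tm hcons htm (R.getD j []) (hR4 _ hmem) c hc
    rw [hok] at i2 i3
    have hz : ev X Y (R.getD j []) ∈ σ.ker := by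
      rw [MonoidHom.mem_ker, map_ev, hp.hX, hp.hY]
      exact hR _ hmem
    have hzc := Subgroup.mem_center_iff.1 (hker hz) (th X Y t c)
    have e : th X Y t c * ev X Y (R.getD j []) * (th X Y t c)⁻¹ = ev X Y (R.getD j []) := by
      rw [hzc, mul_inv_cancel_right]
    rw [e] at i3
    have hu : unk φ X Y n t tab R (2 * n + j) = ext φ (ev X Y (R.getD j [])) := by
      rw [unk, if_neg (by omega), Nat.add_sub_cancel_left]
    refine ⟨?_, fun i hi => by have := i4 i hi; omega, ?_⟩
    · rw [List.map_cons, List.prod_cons, hu, i3]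
    · intro i hi
      rcases List.mem_cons.1 hi with rfl | hi
      · omega
      · have := i5 i hi; omega
  · rw [if_neg hj, Bool.and_eq_true, decide_eq_true_eq, beq_iff_eq] at hok
    rw [eqn, if_neg hj]
    have hmem : R1.getD (j - R.length) [] ∈ R1 := by
      rw [List.getD_eq_getElem _ _ hok.1]
      exact List.getElem_mem hok.1
    obtain ⟨_, i2, i3, i4, i5⟩ :=
      walk_spec hp φ R tm hcons htm (R1.getD (j - R.length) []) (hR14 _ hmem) c hc
    rw [hok.2, hR1 _ hmem, mul_one, mul_inv_cancel, ext_one, one_mul] at i3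
    exact ⟨i3.symm, fun i hi => by have := i4 i hi; omega, fun i hi => by have := i5 i hi; omega⟩

/-- the encoded rows of the chosen relations -/
def rowsOf (B : ℕ) (tab : ℕ → ℕ → ℕ) (tm : ℕ → Bool) (n : ℕ) (R R1 : List (List ℕ))
    (basis : List (ℕ × ℕ)) : List (ℕ × ℕ × ℕ) :=
  basis.map fun cj =>
    (encL B (eqn tab tm n R R1 cj.1 cj.2).1, encL B (eqn tab tm n R R1 cj.1 cj.2).2,
      (eqn tab tm n R R1 cj.1 cj.2).1.length + (eqn tab tm n R R1 cj.1 cj.2).2.length)

end Hom

/-- the table is closed and consistent on inverse letters -/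
def tabOK (n : ℕ) (tab : ℕ → ℕ → ℕ) : Bool :=
  (List.range n).all fun c => (List.range 4).all (fun l => decide (tab c l < n)) &&
    (List.range 2).all (fun g => tab (tab c (2 * g + 1)) (2 * g) == c)

/-- the marked edges are edges of the tree of representatives -/
def treeOK (n : ℕ) (t : ℕ → List ℕ) (tab : ℕ → ℕ → ℕ) (tm : ℕ → Bool) : Bool :=
  (List.range n).all fun c => (List.range 2).all fun g =>
    !tm (2 * c + g) ||
      (t (tab c (2 * g)) == t c ++ [2 * g] || t c == t (tab c (2 * g)) ++ [2 * g + 1])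

/-- all letters are letters -/
def wordsOK (R : List (List ℕ)) : Bool := R.all fun r => r.all fun l => decide (l < 4)

theorem tree_sch (X Y : E) {n : ℕ} {t : ℕ → List ℕ} {tab : ℕ → ℕ → ℕ} {tm : ℕ → Bool}
    (h : treeOK n t tab tm = true) : ∀ c < n, ∀ g < 2, tm (2 * c + g) = true →
    sch X Y t tab c (2 * g) = 1 := by
  intro c hc g hg htm
  have h1 := List.all_eq_true.1 (List.all_eq_true.1 h c (List.mem_range.2 hc)) g
    (List.mem_range.2 hg)
  rw [htm] at h1
  simp only [Bool.not_true, Bool.false_or, Bool.or_eq_true, beq_iff_eq] at h1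
  rw [sch]
  rcases h1 with h1 | h1
  · have : th X Y t (tab c (2 * g)) = th X Y t c * cols X Y (2 * g) := by
      rw [th, h1, ev_append, ev_cons, ev_nil, mul_one]
      rfl
    rw [this, mul_inv_cancel]
  · have : th X Y t c = th X Y t (tab c (2 * g)) * (cols X Y (2 * g))⁻¹ := by
      rw [th, h1, ev_append, ev_cons, ev_nil, mul_one, cols_odd g hg]
      rfl
    rw [this]
    group

/-- **Main criterion.** A finite stem extension of `G` is injective, given a subgroup `H` all of
whose stem extensions are injective, coset data for `H` and an integer certificate that the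
abelianised Reidemeister–Schreier relations kill every Schreier generator. -/
theorem ker_eq_bot_of_cert [Finite E] (σ : E →* G) (hσ : Cfsg.IsStemExtension σ)
    (H : Subgroup G)
    (hH : ∀ (Γ : Type u) [Group Γ] [Finite Γ] (τ : Γ →* ↥H),
      Cfsg.IsStemExtension τ → τ.ker = ⊥)
    (a b : G) (hgen : Subgroup.closure {a, b} = ⊤)
    (CA CB : List (List ℕ × List ℕ)) (hCA : cev a b CA = a) (hCB : cev a b CB = b)
    (R : List (List ℕ)) (hR : ∀ r ∈ R, ev a b r = 1)
    (n : ℕ) (t : ℕ → List ℕ) (tab : ℕ → ℕ → ℕ) (tm : ℕ → Bool)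
    (ht0 : t 0 = []) (hn : 0 < n)
    (hS : ∀ c < n, ∀ l < 4, ev a b (t c) * cols a b l * (ev a b (t (tab c l)))⁻¹ ∈ H)
    (hT : ∀ c < n, ev a b (t c) ∈ H → c = 0)
    (B : ℕ) (basis : List (ℕ × ℕ)) (cert : List (ℕ × List (ℕ × ℕ × ℕ)))
    (h1 : tabOK n tab = true) (h2 : treeOK n t tab tm = true)
    (h3 : wordsOK R = true) (h3' : wordsOK [cw CA ++ [1], cw CB ++ [3]] = true)
    (h4 : basis.all (fun cj => eqnOK tab tm n R [cw CA ++ [1], cw CB ++ [3]] cj.1 cj.2) = true)
    (h5 : checkTargets B (rowsOf B tab tm n R [cw CA ++ [1], cw CB ++ [3]] basis) cert = true)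
    (h6 : cert.map Prod.fst = (List.range (2 * n)).filter (fun e => !tm e)) :
    σ.ker = ⊥ := by
  obtain ⟨X, Y, hX, hY, hgenE, hXA, hYB⟩ := exists_lifts σ hσ a b hgen CA CB hCA hCB
  obtain ⟨hs, hc, hd⟩ := hσ
  have htab : ∀ c < n, (∀ l < 4, tab c l < n) ∧ ∀ g < 2, tab (tab c (2 * g + 1)) (2 * g) = c := by
    intro c hcn
    have := List.all_eq_true.1 h1 c (List.mem_range.2 hcn)
    rw [Bool.and_eq_true] at this
    refine ⟨fun l hl => ?_, fun g hg => ?_⟩
    · have h' := List.all_eq_true.1 this.1 l (List.mem_range.2 hl)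
      exact of_decide_eq_true h'
    · have h' := List.all_eq_true.1 this.2 g (List.mem_range.2 hg)
      exact beq_iff_eq.1 h'
  have hp : Pkg σ H X Y a b n t tab :=
    ⟨hX, hY, hgenE, ht0, hn, fun c hcn => (htab c hcn).1, hS, hT⟩
  have hcons : ∀ c < n, ∀ g < 2, tab (tab c (2 * g + 1)) (2 * g) = c := fun c hcn => (htab c hcn).2
  have htm := tree_sch X Y h2
  have hw4 : ∀ {L : List (List ℕ)}, wordsOK L = true → ∀ r ∈ L, ∀ l ∈ r, l < 4 := by
    intro L hL r hr l hl
    exact of_decide_eq_true (List.all_eq_true.1 (List.all_eq_true.1 hL r hr) l hl)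
  have hR1 : ∀ r ∈ [cw CA ++ [1], cw CB ++ [3]], ev X Y r = 1 := by
    intro r hr
    rcases List.mem_cons.1 hr with rfl | hr
    · rw [ev_append, ev_cw, hXA, ev_cons, ev_nil, mul_one]
      show X * X⁻¹ = 1
      exact mul_inv_cancel X
    · rw [List.mem_singleton] at hr
      subst hr
      rw [ev_append, ev_cw, hYB, ev_cons, ev_nil, mul_one]
      show Y * Y⁻¹ = 1
      exact mul_inv_cancel Y
  -- the homomorphism to the abelianisation
  let φ : ↥(H.comap σ) →* Abelianization ↥(H.comap σ) := Abelianization.of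
  have hgood : ∀ r ∈ rowsOf B tab tm n R [cw CA ++ [1], cw CB ++ [3]] basis,
      Good (unk φ X Y n t tab R) B (2 * n + R.length) r := by
    intro r hr
    obtain ⟨cj, hcj, rfl⟩ := List.mem_map.1 hr
    obtain ⟨e1, e2, e3⟩ := eqn_valid hp φ R [cw CA ++ [1], cw CB ++ [3]] tm hcons htm hc
      (hw4 h3) (hw4 h3') hR hR1 cj.1 cj.2 (List.all_eq_true.1 h4 cj hcj)
    exact ⟨_, _, rfl, rfl, le_rfl, e2, e3, e1⟩
  have htgt := checkTargets_sound (unk φ X Y n t tab R) B (2 * n + R.length) _ hgood cert h5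
  have hgen0 : ∀ c < n, ∀ g < 2, ext φ (sch X Y t tab c (2 * g)) = 1 := by
    intro c hcn g hg
    by_cases htmv : tm (2 * c + g) = true
    · rw [htm c hcn g hg htmv, ext_one]
    · rw [← unk_edge φ R hcn hg]
      apply htgt
      · rw [h6, List.mem_filter, List.mem_range]
        refine ⟨by omega, ?_⟩
        simpa using htmv
      · omega
  have hall : ∀ c < n, ∀ l < 4, ext φ (sch X Y t tab c l) = 1 := by
    intro c hcn l hl
    obtain ⟨g, hg, rfl | rfl⟩ : ∃ g < 2, l = 2 * g ∨ l = 2 * g + 1 := ⟨l / 2, by omega, by omega⟩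
    · exact hgen0 c hcn g hg
    · have hinv : sch X Y t tab c (2 * g + 1) = (sch X Y t tab (tab c (2 * g + 1)) (2 * g))⁻¹ := by
        rw [sch, sch, hcons c hcn g hg, cols_odd g hg]
        group
      have hc' := hp.htab c hcn (2 * g + 1) hl
      rw [hinv, ext_inv φ (sch_mem hp hc' (by omega)), hgen0 _ hc' g hg, inv_one]
  have hφ : ∀ h : ↥(H.comap σ), φ h = 1 := by
    intro h
    have hle : Subgroup.closure {e | ∃ c < n, ∃ l < 4, e = sch X Y t tab c l} ≤
        (φ.ker).map (H.comap σ).subtype := by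
      rw [Subgroup.closure_le]
      rintro e ⟨c, hcn, l, hl, rfl⟩
      have hm := sch_mem hp hcn hl
      refine ⟨⟨_, hm⟩, ?_, rfl⟩
      show (⟨_, hm⟩ : ↥(H.comap σ)) ∈ φ.ker
      rw [MonoidHom.mem_ker, ← ext_of_mem φ hm]
      exact hall c hcn l hl
    obtain ⟨k, hk, hk'⟩ := hle (schreier hp h.2)
    have : k = h := Subtype.ext hk'
    rw [← this]
    exact hk
  have hperf : commutator ↥(H.comap σ) = ⊤ := by
    rw [eq_top_iff]
    intro h _
    rw [← Abelianization.ker_of, MonoidHom.mem_ker]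
    exact hφ h
  have hτ : Cfsg.IsStemExtension (σ.subgroupComap H) := by
    refine ⟨MonoidHom.subgroupComap_surjective_of_surjective σ H hs, ?_, ?_⟩
    · intro z hz
      rw [MonoidHom.mem_ker] at hz
      have hz' : σ z.1 = 1 := congrArg Subtype.val hz
      have hzc := Subgroup.mem_center_iff.1 (hc (MonoidHom.mem_ker.2 hz'))
      rw [Subgroup.mem_center_iff]
      intro g
      exact Subtype.ext (hzc g.1)
    · rw [hperf]
      exact le_top
  have hk := hH ↥(H.comap σ) (σ.subgroupComap H) hτ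
  rw [eq_bot_iff]
  intro z hz
  rw [Subgroup.mem_bot]
  have hzH : z ∈ H.comap σ := by
    rw [Subgroup.mem_comap, MonoidHom.mem_ker.1 hz]
    exact H.one_mem
  have : (⟨z, hzH⟩ : ↥(H.comap σ)) ∈ (σ.subgroupComap H).ker := by
    rw [MonoidHom.mem_ker]
    exact Subtype.ext (MonoidHom.mem_ker.1 hz)
  rw [hk, Subgroup.mem_bot] at this
  exact congrArg Subtype.val this

end Main

end Cfsg.Agent.Helper17.SchurCos
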