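import Mathlib
import Cfsg.Agent.Helper17.SchurCos.Enc

/-!
# General derived relations from encoded combinations (helper17)

A combination of encoded relations yields any relation `∏ u i (i ∈ Lp) = ∏ u i (i ∈ Ln)` whose
encoding closes the accumulated pair.
-/

set_option autoImplicit false

namespace Cfsg.Agent.Helper17.SchurCos

section Enc2

variable {V : Type*} [CommGroup V]

theorem encF_add (B N : ℕ) (c d : ℕ → ℕ) :
    encF B N (fun i => c i + d i) = encF B N c + encF B N d := by
  unfold encF
  rw [← Finset.sum_add_distrib]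
  apply Finset.sum_congr rfl
  intro i _
  ring

theorem pvF_add (u : ℕ → V) (N : ℕ) (c d : ℕ → ℕ) :
    pvF u N (fun i => c i + d i) = pvF u N c * pvF u N d := by
  unfold pvF
  rw [← Finset.prod_mul_distrib]
  apply Finset.prod_congr rfl
  intro i _
  rw [pow_add]

/-- check that a combination of the rows yields the relation `∏ Lp = ∏ Ln` -/
def checkRel (B : ℕ) (rows : List (ℕ × ℕ × ℕ)) (lam : List (ℕ × ℕ × ℕ)) (Lp Ln : List ℕ) :
    Bool :=
  match comb rows lam 0 0 0 with
  | some (P, Q, β) => (P + encL B Ln == Q + encL B Lp) && decide (β + Lp.length + Ln.length < B)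
  | none => false

theorem checkRel_sound (u : ℕ → V) (B N : ℕ) (rows : List (ℕ × ℕ × ℕ))
    (hrows : ∀ r ∈ rows, Good u B N r) (lam : List (ℕ × ℕ × ℕ)) (Lp Ln : List ℕ)
    (hLp : ∀ i ∈ Lp, i < N) (hLn : ∀ i ∈ Ln, i < N)
    (h : checkRel B rows lam Lp Ln = true) : (Lp.map u).prod = (Ln.map u).prod := by
  unfold checkRel at h
  cases hc : comb rows lam 0 0 0 with
  | none => rw [hc] at h; cases h
  | some res =>
    rw [hc] at h
    obtain ⟨P, Q, β⟩ := res
    simp only [Bool.and_eq_true, beq_iff_eq, decide_eq_true_eq] at h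
    obtain ⟨hPQ, hβ⟩ := h
    have hinv : Inv u B N P Q β :=
      comb_sound u B N lam rows 0 0 0 hrows (inv_zero u B N) _ hc
    obtain ⟨cP, cQ, hP, hQ, hv, bP, bQ⟩ := hinv
    have e1 : encF B N (fun i => cP i + Ln.count i) = encF B N (fun i => cQ i + Lp.count i) := by
      rw [encF_add, encF_add, ← hP, ← hQ, ← encL_eq B N Ln hLn, ← encL_eq B N Lp hLp]
      exact hPQ
    have key := encF_inj B N (fun i => cP i + Ln.count i) (fun i => cQ i + Lp.count i)
      (fun i => by
        have h1 := bP i
        have h2 : Ln.count i ≤ Ln.length := List.count_le_length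
        show cP i + Ln.count i < B
        omega)
      (fun i => by
        have h1 := bQ i
        have h2 : Lp.count i ≤ Lp.length := List.count_le_length
        show cQ i + Lp.count i < B
        omega) e1
    have hv2 : pvF u N (fun i => cP i + Ln.count i) = pvF u N (fun i => cQ i + Lp.count i) := by
      unfold pvF
      apply Finset.prod_congr rfl
      intro i hi
      show u i ^ (cP i + Ln.count i) = u i ^ (cQ i + Lp.count i)
      rw [key i (Finset.mem_range.1 hi)]
    rw [pvF_add, pvF_add, ← prod_eq u N Ln hLn, ← prod_eq u N Lp hLp, hv] at hv2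
    exact (mul_left_cancel hv2).symm

end Enc2

end Cfsg.Agent.Helper17.SchurCos
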