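import Mathlib
import Cfsg.Agent.Helper17.SchurCos.Core

/-!
# Packed data for the Schur multiplier criterion (helper17)
-/

set_option autoImplicit false

namespace Cfsg.Agent.Helper17.SchurCos

/-- lookup in a packed coset table (entries of 11 bits) -/
def tabF (tabN : ℕ) (c l : ℕ) : ℕ := (tabN >>> (11 * (4 * c + l))) % 2048

/-- the marked edges -/
def tmF (tmN : ℕ) (e : ℕ) : Bool := tmN.testBit e

/-- decode an entry `(skip, sign, value)` of a combination -/
def dec (x : ℕ) : ℕ × ℕ × ℕ :=
  if (x >>> 24) % 2 = 0 then (x >>> 25, x % 16777216, 0) else (x >>> 25, 0, x % 16777216)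

/-- decode a certificate -/
def decCert (cert : List (ℕ × List ℕ)) : List (ℕ × List (ℕ × ℕ × ℕ)) :=
  cert.map fun kc => (kc.1, kc.2.map dec)

theorem checkTargets_append (B : ℕ) (rows : List (ℕ × ℕ × ℕ))
    (c1 c2 : List (ℕ × List (ℕ × ℕ × ℕ))) :
    checkTargets B rows (c1 ++ c2) = (checkTargets B rows c1 && checkTargets B rows c2) := by
  unfold checkTargets
  rw [List.all_append]

theorem decCert_append (c1 c2 : List (ℕ × List ℕ)) :
    decCert (c1 ++ c2) = decCert c1 ++ decCert c2 := List.map_append

theorem decCert_fst (c : List (ℕ × List ℕ)) : (decCert c).map Prod.fst = c.map Prod.fst := by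
  simp [decCert, List.map_map, Function.comp_def]

end Cfsg.Agent.Helper17.SchurCos
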