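import Mathlib
import Cfsg.Prelude.Def_KGroupFacts
import Cfsg.Agent.Helper17.SchurCos.Core
import Cfsg.Agent.Helper17.SchurCos.Enc2
import Cfsg.Agent.Helper17.SchurCos.Num

/-!
# Stem extensions seen from a cyclic subgroup (helper17)

The setting of `SchurCos.Core` with a cyclic subgroup `H`: the preimage `Ĥ` of `H` in a stem
extension is commutative, so the abelianised Reidemeister–Schreier relations hold in `Ĥ`
itself.  A certificate that every Schreier generator is a power of one of them, `s₀`, with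
`s₀ ^ (m q) = 1`, where `m` is the order of the image of `s₀`, shows that the kernel is
generated by `s₀ ^ m`, of order dividing `q`.
-/

set_option autoImplicit false

namespace Cfsg.Agent.Helper17.SchurCos

open Cfsg.Agent.Helper17.J1

universe u

/-- the certificate: for each non-tree edge an exponent and a (packed) combination showing
that the edge is that power of the distinguished edge -/
def checkCertP (B : ℕ) (rows : List (ℕ × ℕ × ℕ)) (i0 : ℕ)
    (cert : List (ℕ × ℕ × List ℕ)) : Bool :=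
  cert.all fun kc => checkRel B rows (kc.2.2.map dec) [kc.1] (List.replicate kc.2.1 i0)

/-- a group all of whose elements are powers of an element `w` with `w ^ q = 1` is a quotient
of the cyclic group of order `q` -/
theorem exists_surj_zmod_of_zpowers {K : Type*} [Group K] (q : ℕ) [NeZero q] (w : K)
    (hw : w ^ q = 1) (hall : ∀ k : K, k ∈ Subgroup.zpowers w) :
    ∃ π : Multiplicative (ZMod q) →* K, Function.Surjective π := by
  have hmod : ∀ m : ℕ, w ^ (m % q) = w ^ m := by
    intro m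
    conv_rhs => rw [← Nat.mod_add_div m q, pow_add, pow_mul, hw, one_pow, mul_one]
  let π : Multiplicative (ZMod q) →* K :=
    MonoidHom.mk' (fun x => w ^ (Multiplicative.toAdd x).val) (by
      intro x y
      show w ^ (Multiplicative.toAdd x + Multiplicative.toAdd y).val = _
      rw [ZMod.val_add, hmod, pow_add])
  refine ⟨π, fun k => ?_⟩
  obtain ⟨i, hi⟩ := Subgroup.mem_zpowers_iff.1 (hall k)
  refine ⟨Multiplicative.ofAdd ((i : ZMod q)), ?_⟩
  show w ^ ((i : ZMod q)).val = k
  have e1 : w ^ i = w ^ (i % (q : ℤ)) := by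
    conv_lhs => rw [← Int.emod_add_mul_ediv i (q : ℤ), zpow_add, zpow_mul]
    rw [zpow_natCast, hw, one_zpow, mul_one]
  rw [← hi, e1, ← ZMod.val_intCast, zpow_natCast]

section Main3

variable {G : Type u} [Group G] {E : Type u} [Group E]

/-- **Criterion for cyclic kernels, through a cyclic subgroup.** -/
theorem ker_cyclic_of_cert [Finite E] (σ : E →* G) (hσ : Cfsg.IsStemExtension σ)
    (H : Subgroup G) [IsCyclic ↥H]
    (a b : G) (hgen : Subgroup.closure {a, b} = ⊤)
    (CA CB : List (List ℕ × List ℕ)) (hCA : cev a b CA = a) (hCB : cev a b CB = b)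
    (R : List (List ℕ)) (hR : ∀ r ∈ R, ev a b r = 1)
    (n : ℕ) (t : ℕ → List ℕ) (tab : ℕ → ℕ → ℕ) (tm : ℕ → Bool)
    (ht0 : t 0 = []) (hn : 0 < n)
    (hS : ∀ c < n, ∀ l < 4, ev a b (t c) * cols a b l * (ev a b (t (tab c l)))⁻¹ ∈ H)
    (hT : ∀ c < n, ev a b (t c) ∈ H → c = 0)
    (B : ℕ) (basis : List (ℕ × ℕ)) (c0 g0 : ℕ) (hc0 : c0 < n) (hg0 : g0 < 2)
    (m q : ℕ) [NeZero q]
    (hord : orderOf (ev a b (t c0) * cols a b (2 * g0) *
      (ev a b (t (tab c0 (2 * g0))))⁻¹) = m)
    (cert : List (ℕ × ℕ × List ℕ)) (lamM : List ℕ)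
    (h1 : tabOK n tab = true) (h2 : treeOK n t tab tm = true)
    (h3 : wordsOK R = true) (h3' : wordsOK [cw CA ++ [1], cw CB ++ [3]] = true)
    (h4 : basis.all (fun cj => eqnOK tab tm n R [cw CA ++ [1], cw CB ++ [3]] cj.1 cj.2) = true)
    (h5 : checkCertP B (rowsOf B tab tm n R [cw CA ++ [1], cw CB ++ [3]] basis) (2 * c0 + g0)
      cert = true)
    (h5' : checkRel B (rowsOf B tab tm n R [cw CA ++ [1], cw CB ++ [3]] basis) (lamM.map dec)
      (List.replicate (m * q) (2 * c0 + g0)) [] = true)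
    (h6 : cert.map Prod.fst = (List.range (2 * n)).filter (fun e => !tm e)) :
    ∃ π : Multiplicative (ZMod q) →* σ.ker, Function.Surjective π := by
  obtain ⟨X, Y, hX, hY, hgenE, hXA, hYB⟩ := exists_lifts σ hσ a b hgen CA CB hCA hCB
  obtain ⟨hs, hc, hd⟩ := hσ
  have htab : ∀ c < n, (∀ l < 4, tab c l < n) ∧ ∀ g < 2, tab (tab c (2 * g + 1)) (2 * g) = c := by
    intro c hcn
    have := List.all_eq_true.1 h1 c (List.mem_range.2 hcn)
    rw [Bool.and_eq_true] at this
    refine ⟨fun l hl => ?_, fun g hg => ?_⟩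
    · have h' := List.all_eq_true.1 this.1 l (List.mem_range.2 hl)
      exact of_decide_eq_true h'
    · have h' := List.all_eq_true.1 this.2 g (List.mem_range.2 hg)
      exact beq_iff_eq.1 h'
  have hp : Pkg σ H X Y a b n t tab :=
    ⟨hX, hY, hgenE, ht0, hn, fun c hcn => (htab c hcn).1, hS, hT⟩
  have hcons : ∀ c < n, ∀ g < 2, tab (tab c (2 * g + 1)) (2 * g) = c := fun c hcn => (htab c hcn).2
  have htm := tree_sch X Y h2
  have hw4 : ∀ {L : List (List ℕ)}, wordsOK L = true → ∀ r ∈ L, ∀ l ∈ r, l < 4 := by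
    intro L hL r hr l hl
    exact of_decide_eq_true (List.all_eq_true.1 (List.all_eq_true.1 hL r hr) l hl)
  have hR1 : ∀ r ∈ [cw CA ++ [1], cw CB ++ [3]], ev X Y r = 1 := by
    intro r hr
    rcases List.mem_cons.1 hr with rfl | hr
    · rw [ev_append, ev_cw, hXA, ev_cons, ev_nil, mul_one]
      show X * X⁻¹ = 1
      exact mul_inv_cancel X
    · rw [List.mem_singleton] at hr
      subst hr
      rw [ev_append, ev_cw, hYB, ev_cons, ev_nil, mul_one]
      show Y * Y⁻¹ = 1
      exact mul_inv_cancel Y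
  -- the homomorphism to the abelianisation
  let φ : ↥(H.comap σ) →* Abelianization ↥(H.comap σ) := Abelianization.of
  have hgood : ∀ r ∈ rowsOf B tab tm n R [cw CA ++ [1], cw CB ++ [3]] basis,
      Good (unk φ X Y n t tab R) B (2 * n + R.length) r := by
    intro r hr
    obtain ⟨cj, hcj, rfl⟩ := List.mem_map.1 hr
    obtain ⟨e1, e2, e3⟩ := eqn_valid hp φ R [cw CA ++ [1], cw CB ++ [3]] tm hcons htm hc
      (hw4 h3) (hw4 h3') hR hR1 cj.1 cj.2 (List.all_eq_true.1 h4 cj hcj)
    exact ⟨_, _, rfl, rfl, le_rfl, e2, e3, e1⟩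
  -- the distinguished Schreier element
  have hs0 : sch X Y t tab c0 (2 * g0) ∈ H.comap σ := sch_mem hp hc0 (by omega)
  have hU0 : unk φ X Y n t tab R (2 * c0 + g0) = φ ⟨sch X Y t tab c0 (2 * g0), hs0⟩ := by
    rw [unk_edge φ R hc0 hg0, ext_of_mem φ hs0]
  have hσs0 : σ (sch X Y t tab c0 (2 * g0)) =
      ev a b (t c0) * cols a b (2 * g0) * (ev a b (t (tab c0 (2 * g0))))⁻¹ := by
    rw [sch, map_mul, map_mul, map_inv, map_th hp, map_th hp, map_cols, hp.hX, hp.hY]
  generalize sch X Y t tab c0 (2 * g0) = s0 at hs0 hU0 hσs0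
  generalize ev a b (t c0) * cols a b (2 * g0) * (ev a b (t (tab c0 (2 * g0))))⁻¹ = gel
    at hord hσs0
  have hηM : φ ⟨s0, hs0⟩ ^ (m * q) = 1 := by
    have h := checkRel_sound (unk φ X Y n t tab R) B (2 * n + R.length) _ hgood (lamM.map dec)
      (List.replicate (m * q) (2 * c0 + g0)) []
      (by
        intro i hi
        rw [List.mem_replicate] at hi
        omega)
      (by intro i hi; cases hi) h5'
    rw [List.map_replicate, List.prod_replicate, List.map_nil, List.prod_nil, hU0] at h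
    exact h
  have hgen0 : ∀ c < n, ∀ g < 2,
      ext φ (sch X Y t tab c (2 * g)) ∈ Subgroup.zpowers (φ ⟨s0, hs0⟩) := by
    intro c hcn g hg
    by_cases htmv : tm (2 * c + g) = true
    · rw [htm c hcn g hg htmv, ext_one]
      exact Subgroup.one_mem _
    · rw [← unk_edge φ R hcn hg]
      have hmem : (2 * c + g) ∈ cert.map Prod.fst := by
        rw [h6, List.mem_filter, List.mem_range]
        refine ⟨by omega, ?_⟩
        simpa using htmv
      obtain ⟨kc, hkc, hk⟩ := List.mem_map.1 hmem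
      have hchk := List.all_eq_true.1 h5 kc hkc
      have h := checkRel_sound (unk φ X Y n t tab R) B (2 * n + R.length) _ hgood
        (kc.2.2.map dec) [kc.1] (List.replicate kc.2.1 (2 * c0 + g0))
        (by
          intro i hi
          rw [List.mem_singleton] at hi
          omega)
        (by
          intro i hi
          rw [List.mem_replicate] at hi
          omega) hchk
      rw [hk, List.map_cons, List.map_nil, List.prod_cons, List.prod_nil, mul_one,
        List.map_replicate, List.prod_replicate, hU0] at h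
      rw [h]
      exact Subgroup.pow_mem _ (Subgroup.mem_zpowers _) _
  set η := φ ⟨s0, hs0⟩ with hη
  have hall : ∀ c < n, ∀ l < 4, ext φ (sch X Y t tab c l) ∈ Subgroup.zpowers η := by
    intro c hcn l hl
    obtain ⟨g, hg, rfl | rfl⟩ : ∃ g < 2, l = 2 * g ∨ l = 2 * g + 1 := ⟨l / 2, by omega, by omega⟩
    · exact hgen0 c hcn g hg
    · have hinv : sch X Y t tab c (2 * g + 1) = (sch X Y t tab (tab c (2 * g + 1)) (2 * g))⁻¹ := by
        rw [sch, sch, hcons c hcn g hg, cols_odd g hg]
        group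
      have hc' := hp.htab c hcn (2 * g + 1) hl
      rw [hinv, ext_inv φ (sch_mem hp hc' (by omega))]
      exact Subgroup.inv_mem _ (hgen0 _ hc' g hg)
  have hφ : ∀ h : ↥(H.comap σ), φ h ∈ Subgroup.zpowers η := by
    intro h
    have hle : Subgroup.closure {e | ∃ c < n, ∃ l < 4, e = sch X Y t tab c l} ≤
        ((Subgroup.zpowers η).comap φ).map (H.comap σ).subtype := by
      rw [Subgroup.closure_le]
      rintro e ⟨c, hcn, l, hl, rfl⟩
      have hm := sch_mem hp hcn hl
      refine ⟨⟨_, hm⟩, ?_, rfl⟩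
      show φ (⟨_, hm⟩ : ↥(H.comap σ)) ∈ Subgroup.zpowers η
      rw [← ext_of_mem φ hm]
      exact hall c hcn l hl
    obtain ⟨k, hk, hk'⟩ := hle (schreier hp h.2)
    have : k = h := Subtype.ext hk'
    rw [← this]
    exact hk
  -- the preimage is commutative
  let τ : ↥(H.comap σ) →* ↥H := σ.subgroupComap H
  have hτval : ∀ h : ↥(H.comap σ), ((τ h : ↥H) : G) = σ h.1 := fun h => rfl
  have hτc : τ.ker ≤ Subgroup.center ↥(H.comap σ) := by
    intro z hz
    rw [MonoidHom.mem_ker] at hz
    have hz' : σ z.1 = 1 := by rw [← hτval, hz]; rfl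
    have hzc := Subgroup.mem_center_iff.1 (hc (MonoidHom.mem_ker.2 hz'))
    rw [Subgroup.mem_center_iff]
    intro g
    exact Subtype.ext (hzc g.1)
  have hcomm : ∀ x y : ↥(H.comap σ), x * y = y * x :=
    commutative_of_cyclic_center_quotient τ hτc
  have hinj : ∀ x y : ↥(H.comap σ), φ x = φ y → x = y := by
    intro x y hxy
    have h1' : x * y⁻¹ ∈ commutator ↥(H.comap σ) := by
      rw [← Abelianization.ker_of, MonoidHom.mem_ker, map_mul, map_inv, hxy, mul_inv_cancel]
    have h2' : commutator ↥(H.comap σ) ≤ ⊥ := by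
      rw [commutator_def, Subgroup.commutator_le]
      intro g _ h _
      rw [Subgroup.mem_bot, commutatorElement_eq_one_iff_mul_comm]
      exact hcomm g h
    have h3'' := h2' h1'
    rw [Subgroup.mem_bot] at h3''
    exact mul_inv_eq_one.1 h3''
  let s0' : ↥(H.comap σ) := ⟨s0, hs0⟩
  have hsM : s0 ^ (m * q) = 1 := by
    have h1' : s0' ^ (m * q) = 1 := hinj _ _ (by rw [map_pow, map_one]; exact hηM)
    exact congrArg Subtype.val h1'
  have hgm : gel ^ m = 1 := by rw [← hord]; exact pow_orderOf_eq_one gel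
  have hwk : s0 ^ m ∈ σ.ker := by
    rw [MonoidHom.mem_ker, map_pow, hσs0, hgm]
  have hker : ∀ k ∈ σ.ker, ∃ j : ℤ, (s0 ^ m) ^ j = k := by
    intro k hk
    have hkH : k ∈ H.comap σ := by
      rw [Subgroup.mem_comap, MonoidHom.mem_ker.1 hk]
      exact H.one_mem
    obtain ⟨i, hi⟩ := Subgroup.mem_zpowers_iff.1 (hφ ⟨k, hkH⟩)
    have h1' : s0' ^ i = ⟨k, hkH⟩ := hinj _ _ (by rw [map_zpow]; exact hi)
    have h2' : s0 ^ i = k := by
      have := congrArg Subtype.val h1'
      rw [Subgroup.coe_zpow] at this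
      exact this
    have h3'' : gel ^ i = 1 := by
      rw [← hσs0, ← map_zpow, h2']
      exact MonoidHom.mem_ker.1 hk
    have h4' : (m : ℤ) ∣ i := by
      rw [← hord]
      exact orderOf_dvd_iff_zpow_eq_one.2 h3''
    obtain ⟨j, rfl⟩ := h4'
    exact ⟨j, by rw [← h2', zpow_mul, zpow_natCast]⟩
  refine exists_surj_zmod_of_zpowers q (⟨s0 ^ m, hwk⟩ : σ.ker) (Subtype.ext ?_) (fun k => ?_)
  · show (s0 ^ m) ^ q = 1
    rw [← pow_mul]
    exact hsM
  · obtain ⟨j, hj⟩ := hker k.1 k.2
    exact Subgroup.mem_zpowers_iff.2 ⟨j, Subtype.ext (by rw [Subgroup.coe_zpow]; exact hj)⟩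

end Main3

end Cfsg.Agent.Helper17.SchurCos
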