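import Mathlib
import Cfsg.Prelude.Def_KGroupFacts
import Cfsg.Agent.Helper17.J1.Schur2
import Cfsg.Agent.Helper28.M24Gen
import Cfsg.Agent.Helper17.SchurCos.Num

/-!
# Transport of stem-triviality and tables of words (helper17)
-/

set_option autoImplicit false

namespace Cfsg.Agent.Helper17.SchurCos

open Cfsg Cfsg.Agent.Helper28 Cfsg.Agent.Helper28.Golay Cfsg.Agent.Helper17.J1

universe u

/-- all finite stem extensions are injective -/
def StemTrivial (G : Type u) [Group G] : Prop :=
  ∀ (Γ : Type u) [Group Γ] [Finite Γ] (τ : Γ →* G), Cfsg.IsStemExtension τ → τ.ker = ⊥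

theorem stemTrivial_of_hasCyclic {G : Type u} [Group G]
    (h : Cfsg.HasCyclicSchurMultiplier G 1) : StemTrivial G := by
  intro Γ _ _ τ hτ
  obtain ⟨π, hπ⟩ := h.2 Γ τ hτ
  rw [eq_bot_iff]
  intro z hz
  obtain ⟨m, hm⟩ := hπ ⟨z, hz⟩
  have hm1 : m = 1 := by
    apply Multiplicative.toAdd.injective
    exact Subsingleton.elim (α := ZMod 1) _ _
  rw [hm1, map_one] at hm
  rw [Subgroup.mem_bot]
  exact (congrArg Subtype.val hm).symm

theorem StemTrivial.of_equiv {G G' : Type u} [Group G] [Group G'] (e : G ≃* G')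
    (h : StemTrivial G') : StemTrivial G := by
  intro Γ _ _ τ hτ
  have hk : (e.toMonoidHom.comp τ).ker = τ.ker := by
    ext z
    simp [MonoidHom.mem_ker]
  have hst : Cfsg.IsStemExtension (e.toMonoidHom.comp τ) := by
    refine ⟨e.surjective.comp hτ.1, ?_, ?_⟩
    · rw [hk]; exact hτ.2.1
    · rw [hk]; exact hτ.2.2
  rw [← hk]
  exact h Γ _ hst

theorem tabOK_lt {n : ℕ} {tab : ℕ → ℕ → ℕ} (h : tabOK n tab = true) :
    ∀ c < n, ∀ l < 4, tab c l < n := by
  intro c hcn l hl
  have := List.all_eq_true.1 h c (List.mem_range.2 hcn)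
  rw [Bool.and_eq_true] at this
  exact of_decide_eq_true (List.all_eq_true.1 this.1 l (List.mem_range.2 hl))

/-- a word in a packed list of words (48-bit fields: 5 bits of length, then 2 bits per
letter) -/
def wordF (twN : ℕ) (c : ℕ) : List ℕ :=
  (List.range (((twN >>> (48 * c)) % 281474976710656) % 32)).map
    fun i => (((twN >>> (48 * c)) % 281474976710656) >>> (5 + 2 * i)) % 4

/-- an entry of a packed list of masks (24-bit fields) -/
def maskF (dmN : ℕ) (c : ℕ) : ℕ := (dmN >>> (24 * c)) % 16777216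

theorem maskF_lt (dmN c : ℕ) : maskF dmN c < 2 ^ 24 := Nat.mod_lt _ (by norm_num)

/-- the parent of a coset and the letter leading to it (13-bit fields) -/
def parF (parN : ℕ) (c : ℕ) : ℕ × ℕ :=
  (((parN >>> (13 * c)) % 8192) / 4, ((parN >>> (13 * c)) % 8192) % 4)

/-- the representatives form a tree rooted at the coset `0` -/
def parOK (n : ℕ) (t : ℕ → List ℕ) (tab : ℕ → ℕ → ℕ) (par : ℕ → ℕ × ℕ) : Bool :=
  (List.range n).all fun c => c == 0 ||
    (decide ((par c).1 < n) && decide ((par c).2 < 4) && t c == t (par c).1 ++ [(par c).2] &&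
      tab (par c).1 (par c).2 == c)

/-- a property of the cosets proved along the tree of representatives -/
theorem tree_induction {n : ℕ} {t : ℕ → List ℕ} {tab : ℕ → ℕ → ℕ} {par : ℕ → ℕ × ℕ}
    (h : parOK n t tab par = true) (P : ℕ → Prop) (h0 : P 0)
    (hstep : ∀ p < n, ∀ l < 4, tab p l < n → t (tab p l) = t p ++ [l] → P p → P (tab p l)) :
    ∀ c < n, P c := by
  have key : ∀ k, ∀ c < n, (t c).length = k → P c := by
    intro k
    induction k with
    | zero =>
      intro c hc hlen
      have hh := List.all_eq_true.1 h c (List.mem_range.2 hc)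
      rw [Bool.or_eq_true, beq_iff_eq] at hh
      rcases hh with rfl | hh
      · exact h0
      · simp only [Bool.and_eq_true, decide_eq_true_eq, beq_iff_eq] at hh
        rw [hh.1.2, List.length_append] at hlen
        simp at hlen
    | succ k ih =>
      intro c hc hlen
      have hh := List.all_eq_true.1 h c (List.mem_range.2 hc)
      rw [Bool.or_eq_true, beq_iff_eq] at hh
      rcases hh with rfl | hh
      · exact h0
      · simp only [Bool.and_eq_true, decide_eq_true_eq, beq_iff_eq] at hh
        obtain ⟨⟨⟨hp, hl⟩, ht⟩, htab⟩ := hh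
        have hlen' : (t (par c).1).length = k := by
          rw [ht, List.length_append] at hlen
          simpa using hlen
        have := hstep (par c).1 hp (par c).2 hl (by rw [htab]; exact hc) (by rw [htab]; exact ht)
          (ih (par c).1 hp hlen')
        rwa [htab] at this
  intro c hc
  exact key _ c hc rfl

/-- the tables of the letters -/
def colsT (T0 T1 T2 T3 : List Nat) : ℕ → List Nat
  | 0 => T0
  | 1 => T1
  | 2 => T2
  | 3 => T3
  | _ => idT

/-- the table of a word -/
def evT (T0 T1 T2 T3 : List Nat) : List ℕ → List Nat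
  | [] => idT
  | l :: w => comp (colsT T0 T1 T2 T3 l) (evT T0 T1 T2 T3 w)

section

variable {T0 T1 T2 T3 : List Nat}

theorem isPerm_colsT (h0 : isPerm T0 = true) (h1 : isPerm T1 = true) (h2 : isPerm T2 = true)
    (h3 : isPerm T3 = true) (l : ℕ) : isPerm (colsT T0 T1 T2 T3 l) = true := by
  rcases l with _ | _ | _ | _ | l
  · exact h0
  · exact h1
  · exact h2
  · exact h3
  · exact isPerm_idT

theorem isPerm_evT (h0 : isPerm T0 = true) (h1 : isPerm T1 = true) (h2 : isPerm T2 = true)
    (h3 : isPerm T3 = true) (w : List ℕ) : isPerm (evT T0 T1 T2 T3 w) = true := by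
  induction w with
  | nil => exact isPerm_idT
  | cons l w ih => exact isPerm_comp (isPerm_colsT h0 h1 h2 h3 l) ih

theorem cols_permOf (h0 : isPerm T0 = true) (h1 : isPerm T1 = true) (h2 : isPerm T2 = true)
    (h3 : isPerm T3 = true) (e01 : comp T0 T1 = idT) (e23 : comp T2 T3 = idT) (l : ℕ) :
    cols (permOf T0) (permOf T2) l = permOf (colsT T0 T1 T2 T3 l) := by
  have i0 : (permOf T0)⁻¹ = permOf T1 := by
    apply inv_eq_of_mul_eq_one_right
    rw [permOf_mul h0 h1, e01, permOf_idT]
  have i2 : (permOf T2)⁻¹ = permOf T3 := by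
    apply inv_eq_of_mul_eq_one_right
    rw [permOf_mul h2 h3, e23, permOf_idT]
  rcases l with _ | _ | _ | _ | l
  · rfl
  · exact i0
  · rfl
  · exact i2
  · exact permOf_idT.symm

theorem ev_permOf (h0 : isPerm T0 = true) (h1 : isPerm T1 = true) (h2 : isPerm T2 = true)
    (h3 : isPerm T3 = true) (e01 : comp T0 T1 = idT) (e23 : comp T2 T3 = idT) (w : List ℕ) :
    ev (permOf T0) (permOf T2) w = permOf (evT T0 T1 T2 T3 w) := by
  induction w with
  | nil => rw [ev_nil]; exact permOf_idT.symm
  | cons l w ih =>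
    rw [ev_cons, ih, cols_permOf h0 h1 h2 h3 e01 e23 l,
      permOf_mul (isPerm_colsT h0 h1 h2 h3 l) (isPerm_evT h0 h1 h2 h3 w)]
    rfl

end

/-- generation from a straight-line program -/
theorem slp_mem (S : Subgroup (Equiv.Perm GolayPt)) (gens : List (List Nat))
    (hgens : ∀ T ∈ gens, isPerm T = true ∧ permOf T ∈ S)
    (prog : List (Nat × Nat)) (targets : List (List Nat))
    (h : (targets.all fun T => (slpRun prog gens).contains T) = true) :
    ∀ T ∈ targets, permOf T ∈ S := by
  intro T hT
  have hmem := List.all_eq_true.1 h T hT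
  rw [List.contains_eq_mem, decide_eq_true_iff] at hmem
  exact (slp_sound S prog gens hgens T hmem).2

end Cfsg.Agent.Helper17.SchurCos
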