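import Mathlib
import Cfsg.Prelude.Def_KGroupFacts
import Cfsg.Agent.Helper17.SchurCos.Core3
import Cfsg.Agent.Helper17.SchurCos.Stem

/-!
# The criterion of `SchurCos.Core3` from word identities (helper17)

The subgroup is generated by the value `h` of a word, of prime order `m`; the hypotheses on
the coset table are identities between values of words.
-/

set_option autoImplicit false

namespace Cfsg.Agent.Helper17.SchurCos

open Cfsg.Agent.Helper17.J1

universe u

/-- exponent table: 6-bit fields -/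
def kF (kN : ℕ) (c l : ℕ) : ℕ := (kN >>> (6 * (4 * c + l))) % 64

theorem mem_zpowers_lt {G : Type*} [Group G] (h x : G) (m : ℕ) (hm : 0 < m) (hhm : h ^ m = 1)
    (hx : x ∈ Subgroup.zpowers h) : ∃ k < m, x = h ^ k := by
  obtain ⟨i, hi⟩ := Subgroup.mem_zpowers_iff.1 hx
  have e1 : h ^ i = h ^ (i % (m : ℤ)) := by
    conv_lhs => rw [← Int.emod_add_mul_ediv i (m : ℤ), zpow_add, zpow_mul]
    rw [zpow_natCast, hhm, one_zpow, mul_one]
  have hk0 := Int.emod_nonneg i (by exact_mod_cast hm.ne' : (m : ℤ) ≠ 0)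
  have hk3 := Int.emod_lt_of_pos i (by exact_mod_cast hm : (0 : ℤ) < (m : ℤ))
  obtain ⟨j, hj⟩ := Int.eq_ofNat_of_zero_le hk0
  rw [hj] at e1 hk3
  refine ⟨j, by exact_mod_cast hk3, ?_⟩
  rw [← hi, e1, zpow_natCast]

/-- the kernels of the finite stem extensions of `G = ⟨a, b⟩` are quotients of the cyclic group
of order `q`, from a certificate over a subgroup of prime order `m` -/
theorem upper_cyclic {G : Type u} [Group G] (a b : G) (hgen : Subgroup.closure {a, b} = ⊤)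
    (relsL : List (List ℕ)) (CAL CBL : List (List ℕ × List ℕ)) (nC : ℕ) (tF : ℕ → List ℕ)
    (tab : ℕ → ℕ → ℕ) (tm : ℕ → Bool) (kE : ℕ → ℕ → ℕ) (hw : List ℕ) (m : ℕ)
    (hmp : m.Prime) (BB : ℕ) (basisL : List (ℕ × ℕ)) (c0 g0 : ℕ) (q : ℕ) [NeZero q]
    (certL : List (ℕ × ℕ × List ℕ)) (lamML : List ℕ)
    (F1 : ∀ r ∈ relsL, ev a b r = 1)
    (F2 : ev a b (cw CAL) = a ∧ ev a b (cw CBL) = b)
    (F3 : ∀ c < nC, ∀ l < 4,
      ev a b (tF c ++ [l]) = ev a b (poww hw (kE c l) ++ tF (tab c l)))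
    (F4 : ∀ c < nC, ∀ k < m, ev a b (tF c) = ev a b (poww hw k) → c = 0)
    (F5 : ev a b (poww hw m) = 1 ∧ ev a b (poww hw (kE c0 (2 * g0))) ≠ 1)
    (ht0 : tF 0 = []) (hn : 0 < nC) (hc0 : c0 < nC) (hg0 : g0 < 2)
    (h1 : tabOK nC tab = true) (h2 : treeOK nC tF tab tm = true)
    (h3 : wordsOK relsL = true) (h3' : wordsOK [cw CAL ++ [1], cw CBL ++ [3]] = true)
    (h4 : basisL.all (fun cj => eqnOK tab tm nC relsL [cw CAL ++ [1], cw CBL ++ [3]]
      cj.1 cj.2) = true)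
    (h5 : checkCertP BB (rowsOf BB tab tm nC relsL [cw CAL ++ [1], cw CBL ++ [3]] basisL)
      (2 * c0 + g0) certL = true)
    (h5' : checkRel BB (rowsOf BB tab tm nC relsL [cw CAL ++ [1], cw CBL ++ [3]] basisL)
      (lamML.map dec) (List.replicate (m * q) (2 * c0 + g0)) [] = true)
    (h6 : certL.map Prod.fst = (List.range (2 * nC)).filter (fun e => !tm e))
    (Γ : Type u) [Group Γ] [Finite Γ] (σ : Γ →* G) (hσ : Cfsg.IsStemExtension σ) :
    ∃ π : Multiplicative (ZMod q) →* σ.ker, Function.Surjective π := by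
  have hhm : ev a b hw ^ m = 1 := by rw [← ev_poww]; exact F5.1
  have key : ∀ c < nC, ∀ l < 4,
      ev a b (tF c) * cols a b l * (ev a b (tF (tab c l)))⁻¹ = ev a b hw ^ kE c l := by
    intro c hc l hl
    have e := F3 c hc l hl
    rw [ev_append, ev_cons, ev_nil, mul_one, ev_append, ev_poww] at e
    rw [e, mul_inv_cancel_right]
  refine ker_cyclic_of_cert σ hσ (Subgroup.zpowers (ev a b hw)) a b hgen CAL CBL
    (by rw [← ev_cw]; exact F2.1) (by rw [← ev_cw]; exact F2.2) relsL F1 nC tF tab tm ht0 hn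
    ?_ ?_ BB basisL c0 g0 hc0 hg0 m q ?_ certL lamML h1 h2 h3 h3' h4 h5 h5' h6
  · intro c hc l hl
    rw [key c hc l hl]
    exact Subgroup.pow_mem _ (Subgroup.mem_zpowers _) _
  · intro c hc hmem
    obtain ⟨k, hk, e⟩ := mem_zpowers_lt _ _ m hmp.pos hhm hmem
    exact F4 c hc k hk (by rw [e, ev_poww])
  · rw [key c0 hc0 (2 * g0) (by omega)]
    have : Fact m.Prime := ⟨hmp⟩
    apply orderOf_eq_prime
    · rw [← pow_mul, mul_comm, pow_mul, hhm, one_pow]
    · rw [← ev_poww]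
      exact F5.2

end Cfsg.Agent.Helper17.SchurCos
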