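import Mathlib
import Cfsg.Agent.Helper17.L27.ConcA6
import Cfsg.Agent.Helper17.SchurCos.CycUp
import Cfsg.Agent.Helper17.SchurCos.An6D

/-!
# The kernels of the stem extensions of the alternating group of degree 6 (helper17)

They are quotients of the cyclic group of order six: the criterion of `SchurCos.CycUp` with a
subgroup of order 5.
-/

set_option autoImplicit false

namespace Cfsg.Agent.Helper17.SchurCos.An6

open Cfsg Cfsg.Agent.Helper17 Cfsg.Agent.Helper17.J1 Cfsg.Agent.Helper17.SchurCos

/-- the generators -/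
def gA : ↥(alternatingGroup (Fin 6)) := L27.A6a

/-- the generators -/
def gB : ↥(alternatingGroup (Fin 6)) := L27.A6b

theorem hgen : Subgroup.closure {gA, gB} = ⊤ := L27.A6_gen

/-- the representatives -/
def tF (c : ℕ) : List ℕ := wordF twN c

set_option maxRecDepth 100000 in
theorem F1 : ∀ r ∈ relsL, ev gA gB r = 1 := by decide +kernel

set_option maxRecDepth 100000 in
theorem F2 : ev gA gB (cw CAL) = gA ∧ ev gA gB (cw CBL) = gB := by decide +kernel

set_option maxRecDepth 100000 in
theorem F3_0 : ∀ c < 45, 0 ≤ c → ∀ l < 4,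
    ev gA gB (tF c ++ [l]) = ev gA gB (poww hwL (kF kN c l) ++ tF (tabF tabN c l)) := by
  decide +kernel

set_option maxRecDepth 100000 in
theorem F3_1 : ∀ c < 72, 45 ≤ c → ∀ l < 4,
    ev gA gB (tF c ++ [l]) = ev gA gB (poww hwL (kF kN c l) ++ tF (tabF tabN c l)) := by
  decide +kernel

theorem F3 : ∀ c < nC, ∀ l < 4,
    ev gA gB (tF c ++ [l]) = ev gA gB (poww hwL (kF kN c l) ++ tF (tabF tabN c l)) := by
  intro c hc l hl
  have hc' : c < 72 := hc
  by_cases h0 : c < 45
  · exact F3_0 c h0 (by omega) l hl
  exact F3_1 c hc' (by omega) l hl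

set_option maxRecDepth 100000 in
theorem F4 : ∀ c < nC, ∀ k < mP, ev gA gB (tF c) = ev gA gB (poww hwL k) → c = 0 := by
  decide +kernel

set_option maxRecDepth 100000 in
theorem F5 : ev gA gB (poww hwL mP) = 1 ∧ ev gA gB (poww hwL (kF kN c0 (2 * g0))) ≠ 1 := by
  decide +kernel

theorem h1 : tabOK nC (tabF tabN) = true := by decide +kernel

theorem h2 : treeOK nC tF (tabF tabN) (tmF tmN) = true := by decide +kernel

theorem h3 : wordsOK relsL = true := by decide +kernel

theorem h3' : wordsOK [cw CAL ++ [1], cw CBL ++ [3]] = true := by decide +kernel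

set_option maxRecDepth 1000000 in
theorem h4 : basisL.all (fun cj => eqnOK (tabF tabN) (tmF tmN) nC relsL
    [cw CAL ++ [1], cw CBL ++ [3]] cj.1 cj.2) = true := by decide +kernel

set_option maxRecDepth 1000000 in
theorem h5 : checkCertP BB (rowsOf BB (tabF tabN) (tmF tmN) nC relsL
    [cw CAL ++ [1], cw CBL ++ [3]] basisL) (2 * c0 + g0) certL = true := by decide +kernel

set_option maxRecDepth 1000000 in
theorem h5' : checkRel BB (rowsOf BB (tabF tabN) (tmF tmN) nC relsL
    [cw CAL ++ [1], cw CBL ++ [3]] basisL) (lamML.map dec)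
    (List.replicate (mP * 6) (2 * c0 + g0)) [] = true := by decide +kernel

set_option maxRecDepth 1000000 in
theorem h6 : certL.map Prod.fst = (List.range (2 * nC)).filter (fun e => !tmF tmN e) := by
  decide +kernel

/-- the kernel of every finite stem extension of the alternating group of degree 6 is a
quotient of the cyclic group of order six -/
theorem upper (Γ : Type) [Group Γ] [Finite Γ] (σ : Γ →* ↥(alternatingGroup (Fin 6)))
    (hσ : Cfsg.IsStemExtension σ) :
    ∃ π : Multiplicative (ZMod 6) →* σ.ker, Function.Surjective π :=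
  upper_cyclic gA gB hgen relsL CAL CBL nC tF (tabF tabN) (tmF tmN) (kF kN) hwL mP
    (by norm_num [mP]) BB basisL c0 g0 6 certL lamML F1 F2 F3 F4 F5 (by decide) (by decide)
    (by decide) (by decide) h1 h2 h3 h3' h4 h5 h5' h6 Γ σ hσ

end Cfsg.Agent.Helper17.SchurCos.An6
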