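import Mathlib
import Cfsg.Agent.Helper17.L27.ConcA6
import Cfsg.Agent.Helper17.SchurCos.CycUp

/-!
# Two generators of the alternating group of degree seven (helper17)

`a = (0 1 2)` and `b = (2 3 4 5 6)` generate `A₇`: the subgroup they generate has order
divisible by `4 · 5 · 7 · 9`.
-/

set_option autoImplicit false

namespace Cfsg.Agent.Helper17.SchurCos.An7

open Cfsg.Agent.Helper17 Cfsg.Agent.Helper17.J1 Cfsg.Agent.Helper17.L27
open Cfsg.Agent.Helper17.SchurCos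

/-- `(0 1 2)` -/
def a7a : Equiv.Perm (Fin 7) := Equiv.swap 0 1 * Equiv.swap 1 2

/-- `(2 3 4 5 6)` -/
def a7b : Equiv.Perm (Fin 7) :=
  Equiv.swap 2 3 * Equiv.swap 3 4 * Equiv.swap 4 5 * Equiv.swap 5 6

theorem a7a_mem : a7a ∈ alternatingGroup (Fin 7) := by
  rw [Equiv.Perm.mem_alternatingGroup]
  simp [a7a, Equiv.Perm.sign_mul, Equiv.Perm.sign_swap']

theorem a7b_mem : a7b ∈ alternatingGroup (Fin 7) := by
  rw [Equiv.Perm.mem_alternatingGroup]
  simp [a7b, Equiv.Perm.sign_mul, Equiv.Perm.sign_swap']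

/-- the generators -/
def gA : ↥(alternatingGroup (Fin 7)) := ⟨a7a, a7a_mem⟩

/-- the generators -/
def gB : ↥(alternatingGroup (Fin 7)) := ⟨a7b, a7b_mem⟩

theorem card_A7 : Nat.card (alternatingGroup (Fin 7)) = 2520 := by
  rw [nat_card_alternatingGroup, Nat.card_fin]
  decide

/-- word of an element of order four -/
def w4 : List ℕ := [2, 2, 1, 2, 0]

/-- word of a second element of order three commuting with the first generator -/
def wv : List ℕ := [2, 0, 3, 3, 1, 2, 0, 2]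

set_option maxRecDepth 100000 in
theorem facts7 :
    ev gA gB w4 ^ 2 ≠ 1 ∧ ev gA gB w4 ^ 4 = 1 ∧
    gB ≠ 1 ∧ gB ^ 5 = 1 ∧ gA * gB ≠ 1 ∧ (gA * gB) ^ 7 = 1 ∧
    gA ^ 3 = 1 ∧ ev gA gB wv ^ 3 = 1 ∧ gA * ev gA gB wv = ev gA gB wv * gA ∧ gA ≠ 1 ∧
    ev gA gB wv ≠ 1 ∧ ev gA gB wv ≠ gA ∧ ev gA gB wv ≠ gA ^ 2 := by
  decide +kernel

theorem hgen : Subgroup.closure ({gA, gB} : Set (alternatingGroup (Fin 7))) = ⊤ := by
  have hs : IsSimpleGroup (alternatingGroup (Fin 7)) :=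
    alternatingGroup.isSimpleGroup (by simp)
  obtain ⟨f1, f2, f3, f4, f5, f6, f7, f8, f9, f10, f11, f12, f13⟩ := facts7
  set H := Subgroup.closure ({gA, gB} : Set (alternatingGroup (Fin 7))) with hH
  have ha : gA ∈ H := Subgroup.subset_closure (by simp)
  have hb : gB ∈ H := Subgroup.subset_closure (by simp)
  have dvd_of_mem : ∀ x ∈ H, orderOf x ∣ Nat.card H := by
    intro x hx
    rw [← Nat.card_zpowers]
    exact Subgroup.card_dvd_of_le ((Subgroup.zpowers_le).2 hx)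
  have h4 : 4 ∣ Nat.card H := by
    have : Fact (Nat.Prime 2) := ⟨Nat.prime_two⟩
    have ho : orderOf (ev gA gB w4) = 2 ^ (1 + 1) :=
      orderOf_eq_prime_pow (show ¬ ev gA gB w4 ^ 2 ^ 1 = 1 from f1)
        (show ev gA gB w4 ^ 2 ^ (1 + 1) = 1 from f2)
    have h := dvd_of_mem _ (J1.ev_mem_closure gA gB w4)
    rw [ho] at h
    exact h
  have h5 : 5 ∣ Nat.card H := by
    have : Fact (Nat.Prime 5) := ⟨by norm_num⟩
    have ho : orderOf gB = 5 := orderOf_eq_prime f4 f3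
    have h := dvd_of_mem _ hb
    rw [ho] at h
    exact h
  have h7 : 7 ∣ Nat.card H := by
    have : Fact (Nat.Prime 7) := ⟨by norm_num⟩
    have ho : orderOf (gA * gB) = 7 := orderOf_eq_prime f6 f5
    have h := dvd_of_mem _ (H.mul_mem ha hb)
    rw [ho] at h
    exact h
  have h9 : 9 ∣ Nat.card H := by
    have hvu : ev gA gB wv ∉ Subgroup.zpowers gA := by
      intro hmem
      obtain ⟨k, hk, e⟩ := mem_zpowers_lt gA _ 3 (by norm_num) f7 hmem
      interval_cases k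
      · exact f11 (by rw [e, pow_zero])
      · exact f12 (by rw [e, pow_one])
      · exact f13 e
    have h := nine_dvd_card_sup gA (ev gA gB wv) f7 f8 f9 f10 hvu
    have hle : Subgroup.zpowers gA ⊔ Subgroup.zpowers (ev gA gB wv) ≤ H := by
      rw [sup_le_iff, Subgroup.zpowers_le, Subgroup.zpowers_le]
      exact ⟨ha, J1.ev_mem_closure _ _ _⟩
    exact h.trans (Subgroup.card_dvd_of_le hle)
  have h20 : 20 ∣ Nat.card H :=
    Nat.Coprime.mul_dvd_of_dvd_of_dvd (by norm_num : Nat.Coprime 4 5) h4 h5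
  have h140 : 140 ∣ Nat.card H :=
    Nat.Coprime.mul_dvd_of_dvd_of_dvd (by norm_num : Nat.Coprime 20 7) h20 h7
  have h1260 : 1260 ∣ Nat.card H :=
    Nat.Coprime.mul_dvd_of_dvd_of_dvd (by norm_num : Nat.Coprime 140 9) h140 h9
  exact eq_top_of_dvd_card H 2520 1260 card_A7 h1260 (by norm_num) (by norm_num)

end Cfsg.Agent.Helper17.SchurCos.An7
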