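import Mathlib
import Cfsg.Prelude.Def_KGroupFacts
import Cfsg.Agent.Helper17.SchurCos.Core3

/-!
# Involutions over a cyclic subgroup in a stem extension (helper17)

The setting of `SchurCos.Core3`: when the certificate shows that every Schreier generator of
the preimage `Ĥ` of a cyclic subgroup `H` is a power of one of them, `Ĥ` is cyclic, so it
contains at most one element of order two.
-/

set_option autoImplicit false

namespace Cfsg.Agent.Helper17.SchurCos

open Cfsg.Agent.Helper17.J1

universe u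

section Main4

variable {G : Type u} [Group G] {E : Type u} [Group E]

/-- **Uniqueness of the involution over a cyclic subgroup.** -/
theorem invol_unique_of_cert [Finite E] (σ : E →* G) (hσ : Cfsg.IsStemExtension σ)
    (H : Subgroup G) [IsCyclic ↥H]
    (a b : G) (hgen : Subgroup.closure {a, b} = ⊤)
    (CA CB : List (List ℕ × List ℕ)) (hCA : cev a b CA = a) (hCB : cev a b CB = b)
    (R : List (List ℕ)) (hR : ∀ r ∈ R, ev a b r = 1)
    (n : ℕ) (t : ℕ → List ℕ) (tab : ℕ → ℕ → ℕ) (tm : ℕ → Bool)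
    (ht0 : t 0 = []) (hn : 0 < n)
    (hS : ∀ c < n, ∀ l < 4, ev a b (t c) * cols a b l * (ev a b (t (tab c l)))⁻¹ ∈ H)
    (hT : ∀ c < n, ev a b (t c) ∈ H → c = 0)
    (B : ℕ) (basis : List (ℕ × ℕ)) (c0 g0 : ℕ) (hc0 : c0 < n) (hg0 : g0 < 2)
    (cert : List (ℕ × ℕ × List ℕ))
    (h1 : tabOK n tab = true) (h2 : treeOK n t tab tm = true)
    (h3 : wordsOK R = true) (h3' : wordsOK [cw CA ++ [1], cw CB ++ [3]] = true)
    (h4 : basis.all (fun cj => eqnOK tab tm n R [cw CA ++ [1], cw CB ++ [3]] cj.1 cj.2) = true)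
    (h5 : checkCertP B (rowsOf B tab tm n R [cw CA ++ [1], cw CB ++ [3]] basis) (2 * c0 + g0)
      cert = true)
    (h6 : cert.map Prod.fst = (List.range (2 * n)).filter (fun e => !tm e))
    (x y : E) (hx : σ x ∈ H) (hy : σ y ∈ H) (hx2 : orderOf x = 2) (hy2 : orderOf y = 2) :
    x = y := by
  obtain ⟨X, Y, hX, hY, hgenE, hXA, hYB⟩ := exists_lifts σ hσ a b hgen CA CB hCA hCB
  obtain ⟨hs, hc, hd⟩ := hσ
  have htab : ∀ c < n, (∀ l < 4, tab c l < n) ∧ ∀ g < 2, tab (tab c (2 * g + 1)) (2 * g) = c := by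
    intro c hcn
    have := List.all_eq_true.1 h1 c (List.mem_range.2 hcn)
    rw [Bool.and_eq_true] at this
    refine ⟨fun l hl => ?_, fun g hg => ?_⟩
    · have h' := List.all_eq_true.1 this.1 l (List.mem_range.2 hl)
      exact of_decide_eq_true h'
    · have h' := List.all_eq_true.1 this.2 g (List.mem_range.2 hg)
      exact beq_iff_eq.1 h'
  have hp : Pkg σ H X Y a b n t tab :=
    ⟨hX, hY, hgenE, ht0, hn, fun c hcn => (htab c hcn).1, hS, hT⟩
  have hcons : ∀ c < n, ∀ g < 2, tab (tab c (2 * g + 1)) (2 * g) = c := fun c hcn => (htab c hcn).2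
  have htm := tree_sch X Y h2
  have hw4 : ∀ {L : List (List ℕ)}, wordsOK L = true → ∀ r ∈ L, ∀ l ∈ r, l < 4 := by
    intro L hL r hr l hl
    exact of_decide_eq_true (List.all_eq_true.1 (List.all_eq_true.1 hL r hr) l hl)
  have hR1 : ∀ r ∈ [cw CA ++ [1], cw CB ++ [3]], ev X Y r = 1 := by
    intro r hr
    rcases List.mem_cons.1 hr with rfl | hr
    · rw [ev_append, ev_cw, hXA, ev_cons, ev_nil, mul_one]
      show X * X⁻¹ = 1
      exact mul_inv_cancel X
    · rw [List.mem_singleton] at hr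
      subst hr
      rw [ev_append, ev_cw, hYB, ev_cons, ev_nil, mul_one]
      show Y * Y⁻¹ = 1
      exact mul_inv_cancel Y
  -- the homomorphism to the abelianisation
  let φ : ↥(H.comap σ) →* Abelianization ↥(H.comap σ) := Abelianization.of
  have hgood : ∀ r ∈ rowsOf B tab tm n R [cw CA ++ [1], cw CB ++ [3]] basis,
      Good (unk φ X Y n t tab R) B (2 * n + R.length) r := by
    intro r hr
    obtain ⟨cj, hcj, rfl⟩ := List.mem_map.1 hr
    obtain ⟨e1, e2, e3⟩ := eqn_valid hp φ R [cw CA ++ [1], cw CB ++ [3]] tm hcons htm hc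
      (hw4 h3) (hw4 h3') hR hR1 cj.1 cj.2 (List.all_eq_true.1 h4 cj hcj)
    exact ⟨_, _, rfl, rfl, le_rfl, e2, e3, e1⟩
  -- the distinguished Schreier element
  have hs0 : sch X Y t tab c0 (2 * g0) ∈ H.comap σ := sch_mem hp hc0 (by omega)
  have hU0 : unk φ X Y n t tab R (2 * c0 + g0) = φ ⟨sch X Y t tab c0 (2 * g0), hs0⟩ := by
    rw [unk_edge φ R hc0 hg0, ext_of_mem φ hs0]
  generalize sch X Y t tab c0 (2 * g0) = s0 at hs0 hU0
  have hgen0 : ∀ c < n, ∀ g < 2,
      ext φ (sch X Y t tab c (2 * g)) ∈ Subgroup.zpowers (φ ⟨s0, hs0⟩) := by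
    intro c hcn g hg
    by_cases htmv : tm (2 * c + g) = true
    · rw [htm c hcn g hg htmv, ext_one]
      exact Subgroup.one_mem _
    · rw [← unk_edge φ R hcn hg]
      have hmem : (2 * c + g) ∈ cert.map Prod.fst := by
        rw [h6, List.mem_filter, List.mem_range]
        refine ⟨by omega, ?_⟩
        simpa using htmv
      obtain ⟨kc, hkc, hk⟩ := List.mem_map.1 hmem
      have hchk := List.all_eq_true.1 h5 kc hkc
      have h := checkRel_sound (unk φ X Y n t tab R) B (2 * n + R.length) _ hgood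
        (kc.2.2.map dec) [kc.1] (List.replicate kc.2.1 (2 * c0 + g0))
        (by
          intro i hi
          rw [List.mem_singleton] at hi
          omega)
        (by
          intro i hi
          rw [List.mem_replicate] at hi
          omega) hchk
      rw [hk, List.map_cons, List.map_nil, List.prod_cons, List.prod_nil, mul_one,
        List.map_replicate, List.prod_replicate, hU0] at h
      rw [h]
      exact Subgroup.pow_mem _ (Subgroup.mem_zpowers _) _
  set η := φ ⟨s0, hs0⟩ with hη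
  have hall : ∀ c < n, ∀ l < 4, ext φ (sch X Y t tab c l) ∈ Subgroup.zpowers η := by
    intro c hcn l hl
    obtain ⟨g, hg, rfl | rfl⟩ : ∃ g < 2, l = 2 * g ∨ l = 2 * g + 1 := ⟨l / 2, by omega, by omega⟩
    · exact hgen0 c hcn g hg
    · have hinv : sch X Y t tab c (2 * g + 1) = (sch X Y t tab (tab c (2 * g + 1)) (2 * g))⁻¹ := by
        rw [sch, sch, hcons c hcn g hg, cols_odd g hg]
        group
      have hc' := hp.htab c hcn (2 * g + 1) hl
      rw [hinv, ext_inv φ (sch_mem hp hc' (by omega))]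
      exact Subgroup.inv_mem _ (hgen0 _ hc' g hg)
  have hφ : ∀ h : ↥(H.comap σ), φ h ∈ Subgroup.zpowers η := by
    intro h
    have hle : Subgroup.closure {e | ∃ c < n, ∃ l < 4, e = sch X Y t tab c l} ≤
        ((Subgroup.zpowers η).comap φ).map (H.comap σ).subtype := by
      rw [Subgroup.closure_le]
      rintro e ⟨c, hcn, l, hl, rfl⟩
      have hm := sch_mem hp hcn hl
      refine ⟨⟨_, hm⟩, ?_, rfl⟩
      show φ (⟨_, hm⟩ : ↥(H.comap σ)) ∈ Subgroup.zpowers η
      rw [← ext_of_mem φ hm]
      exact hall c hcn l hl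
    obtain ⟨k, hk, hk'⟩ := hle (schreier hp h.2)
    have : k = h := Subtype.ext hk'
    rw [← this]
    exact hk
  -- the preimage is commutative
  let τ : ↥(H.comap σ) →* ↥H := σ.subgroupComap H
  have hτval : ∀ h : ↥(H.comap σ), ((τ h : ↥H) : G) = σ h.1 := fun h => rfl
  have hτc : τ.ker ≤ Subgroup.center ↥(H.comap σ) := by
    intro z hz
    rw [MonoidHom.mem_ker] at hz
    have hz' : σ z.1 = 1 := by rw [← hτval, hz]; rfl
    have hzc := Subgroup.mem_center_iff.1 (hc (MonoidHom.mem_ker.2 hz'))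
    rw [Subgroup.mem_center_iff]
    intro g
    exact Subtype.ext (hzc g.1)
  have hcomm : ∀ x y : ↥(H.comap σ), x * y = y * x :=
    commutative_of_cyclic_center_quotient τ hτc
  have hinj : ∀ x y : ↥(H.comap σ), φ x = φ y → x = y := by
    intro x y hxy
    have h1' : x * y⁻¹ ∈ commutator ↥(H.comap σ) := by
      rw [← Abelianization.ker_of, MonoidHom.mem_ker, map_mul, map_inv, hxy, mul_inv_cancel]
    have h2' : commutator ↥(H.comap σ) ≤ ⊥ := by
      rw [commutator_def, Subgroup.commutator_le]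
      intro g _ h _
      rw [Subgroup.mem_bot, commutatorElement_eq_one_iff_mul_comm]
      exact hcomm g h
    have h3'' := h2' h1'
    rw [Subgroup.mem_bot] at h3''
    exact mul_inv_eq_one.1 h3''
  classical
  have hall' : ∀ h : ↥(H.comap σ), h ∈ Subgroup.zpowers (⟨s0, hs0⟩ : ↥(H.comap σ)) := by
    intro h
    obtain ⟨i, hi⟩ := Subgroup.mem_zpowers_iff.1 (hφ h)
    exact Subgroup.mem_zpowers_iff.2 ⟨i, hinj _ _ (by rw [map_zpow]; exact hi)⟩
  have hcyc : IsCyclic ↥(H.comap σ) :=
    isCyclic_iff_exists_zpowers_eq_top.2 ⟨⟨s0, hs0⟩, by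
      rw [eq_top_iff]
      intro h _
      exact hall' h⟩
  have : Fintype ↥(H.comap σ) := Fintype.ofFinite _
  have hle := IsCyclic.card_pow_eq_one_le (α := ↥(H.comap σ)) (n := 2) (by norm_num)
  let x' : ↥(H.comap σ) := ⟨x, hx⟩
  let y' : ↥(H.comap σ) := ⟨y, hy⟩
  by_contra hne
  have hx1 : x ≠ 1 := by
    intro e
    rw [e, orderOf_one] at hx2
    exact absurd hx2 (by norm_num)
  have hy1 : y ≠ 1 := by
    intro e
    rw [e, orderOf_one] at hy2
    exact absurd hy2 (by norm_num)
  have hxx : x ^ 2 = 1 := by rw [← hx2]; exact pow_orderOf_eq_one x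
  have hyy : y ^ 2 = 1 := by rw [← hy2]; exact pow_orderOf_eq_one y
  have hsub : ({1, x', y'} : Finset ↥(H.comap σ)) ⊆
      Finset.univ.filter (fun a : ↥(H.comap σ) => a ^ 2 = 1) := by
    intro w hw
    rw [Finset.mem_filter]
    refine ⟨Finset.mem_univ _, ?_⟩
    rw [Finset.mem_insert, Finset.mem_insert, Finset.mem_singleton] at hw
    rcases hw with rfl | rfl | rfl
    · exact one_pow 2
    · exact Subtype.ext hxx
    · exact Subtype.ext hyy
  have hc3 : ({1, x', y'} : Finset ↥(H.comap σ)).card = 3 := by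
    rw [Finset.card_insert_of_notMem, Finset.card_insert_of_notMem, Finset.card_singleton]
    · rw [Finset.mem_singleton]
      intro e
      exact hne (congrArg Subtype.val e)
    · rw [Finset.mem_insert, Finset.mem_singleton]
      rintro (e | e)
      · exact hx1 (congrArg Subtype.val e).symm
      · exact hy1 (congrArg Subtype.val e).symm
  have := (Finset.card_le_card hsub).trans hle
  omega

end Main4

end Cfsg.Agent.Helper17.SchurCos
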