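import Mathlib
import Cfsg.Prelude.Def_KGroupFacts
import Cfsg.Agent.Helper17.SchurCos.Core4
import Cfsg.Agent.Helper17.SchurCos.CycUp

/-!
# The criterion of `SchurCos.Core4` from word identities (helper17)

The cyclic subgroup is generated by the value `h` of a word with `h ^ m = 1`; the hypotheses on
the coset table are identities between values of words.
-/

set_option autoImplicit false

namespace Cfsg.Agent.Helper17.SchurCos

open Cfsg.Agent.Helper17.J1

universe u

/-- in a finite stem extension of `G = ⟨a, b⟩` there is at most one element of order two over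
the cyclic subgroup generated by the value of the word `hw`, from a certificate -/
theorem invol_unique_cyclic {G : Type u} [Group G] (a b : G)
    (hgen : Subgroup.closure {a, b} = ⊤)
    (relsL : List (List ℕ)) (CAL CBL : List (List ℕ × List ℕ)) (nC : ℕ) (tF : ℕ → List ℕ)
    (tab : ℕ → ℕ → ℕ) (tm : ℕ → Bool) (kE : ℕ → ℕ → ℕ) (hw : List ℕ) (m : ℕ)
    (hm : 0 < m) (BB : ℕ) (basisL : List (ℕ × ℕ)) (c0 g0 : ℕ)
    (certL : List (ℕ × ℕ × List ℕ))
    (F1 : ∀ r ∈ relsL, ev a b r = 1)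
    (F2 : ev a b (cw CAL) = a ∧ ev a b (cw CBL) = b)
    (F3 : ∀ c < nC, ∀ l < 4,
      ev a b (tF c ++ [l]) = ev a b (poww hw (kE c l) ++ tF (tab c l)))
    (F4 : ∀ c < nC, ∀ k < m, ev a b (tF c) = ev a b (poww hw k) → c = 0)
    (F5 : ev a b (poww hw m) = 1)
    (ht0 : tF 0 = []) (hn : 0 < nC) (hc0 : c0 < nC) (hg0 : g0 < 2)
    (h1 : tabOK nC tab = true) (h2 : treeOK nC tF tab tm = true)
    (h3 : wordsOK relsL = true) (h3' : wordsOK [cw CAL ++ [1], cw CBL ++ [3]] = true)
    (h4 : basisL.all (fun cj => eqnOK tab tm nC relsL [cw CAL ++ [1], cw CBL ++ [3]]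
      cj.1 cj.2) = true)
    (h5 : checkCertP BB (rowsOf BB tab tm nC relsL [cw CAL ++ [1], cw CBL ++ [3]] basisL)
      (2 * c0 + g0) certL = true)
    (h6 : certL.map Prod.fst = (List.range (2 * nC)).filter (fun e => !tm e))
    (Γ : Type u) [Group Γ] [Finite Γ] (σ : Γ →* G) (hσ : Cfsg.IsStemExtension σ)
    (x y : Γ) (hx : σ x ∈ Subgroup.zpowers (ev a b hw))
    (hy : σ y ∈ Subgroup.zpowers (ev a b hw))
    (hx2 : orderOf x = 2) (hy2 : orderOf y = 2) : x = y := by
  have hhm : ev a b hw ^ m = 1 := by rw [← ev_poww]; exact F5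
  have key : ∀ c < nC, ∀ l < 4,
      ev a b (tF c) * cols a b l * (ev a b (tF (tab c l)))⁻¹ = ev a b hw ^ kE c l := by
    intro c hc l hl
    have e := F3 c hc l hl
    rw [ev_append, ev_cons, ev_nil, mul_one, ev_append, ev_poww] at e
    rw [e, mul_inv_cancel_right]
  refine invol_unique_of_cert σ hσ (Subgroup.zpowers (ev a b hw)) a b hgen CAL CBL
    (by rw [← ev_cw]; exact F2.1) (by rw [← ev_cw]; exact F2.2) relsL F1 nC tF tab tm ht0 hn
    ?_ ?_ BB basisL c0 g0 hc0 hg0 certL h1 h2 h3 h3' h4 h5 h6 x y hx hy hx2 hy2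
  · intro c hc l hl
    rw [key c hc l hl]
    exact Subgroup.pow_mem _ (Subgroup.mem_zpowers _) _
  · intro c hc hmem
    obtain ⟨k, hk, e⟩ := mem_zpowers_lt _ _ m hm hhm hmem
    exact F4 c hc k hk (by rw [e, ev_poww])

end Cfsg.Agent.Helper17.SchurCos
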