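import Mathlib
import Cfsg.Agent.Helper17.SchurCos.CycUp

/-!
# Two generators of the alternating group of degree eight (helper17)

`a = (0 1 2)` and `b = (0 1)(2 3 4 5 6 7)` generate `A₈`: the subgroup they generate is doubly
transitive and contains a 3-cycle (Jordan).
-/

set_option autoImplicit false

namespace Cfsg.Agent.Helper17.SchurCos.An8

open Cfsg.Agent.Helper17 Cfsg.Agent.Helper17.J1
open Cfsg.Agent.Helper17.SchurCos

/-- `(0 1 2)` -/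
def a8a : Equiv.Perm (Fin 8) := Equiv.swap 1 0 * Equiv.swap 1 2

/-- `(0 1)(2 3 4 5 6 7)` -/
def a8b : Equiv.Perm (Fin 8) :=
  Equiv.swap 0 1 * (Equiv.swap 2 3 * Equiv.swap 3 4 * Equiv.swap 4 5 * Equiv.swap 5 6 *
    Equiv.swap 6 7)

theorem a8a_mem : a8a ∈ alternatingGroup (Fin 8) := by
  rw [Equiv.Perm.mem_alternatingGroup]
  simp [a8a, Equiv.Perm.sign_mul, Equiv.Perm.sign_swap']

theorem a8b_mem : a8b ∈ alternatingGroup (Fin 8) := by
  rw [Equiv.Perm.mem_alternatingGroup]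
  simp [a8b, Equiv.Perm.sign_mul, Equiv.Perm.sign_swap']

/-- the generators -/
def gA : ↥(alternatingGroup (Fin 8)) := ⟨a8a, a8a_mem⟩

/-- the generators -/
def gB : ↥(alternatingGroup (Fin 8)) := ⟨a8b, a8b_mem⟩

theorem card_A8 : Nat.card (alternatingGroup (Fin 8)) = 20160 := by
  rw [nat_card_alternatingGroup, Nat.card_fin]
  decide

/-- words moving the pair `(0, 1)` to every pair of distinct points -/
def pairW : List (List ℕ) :=
  [[], [1, 2], [2, 0], [2, 0, 2, 0], [2, 2, 2, 0], [3, 0, 3, 0], [3, 0], [2], [0], [0, 2, 0], [2, 2, 0], [2, 2, 0, 2, 0], [3, 3, 0], [0, 3, 0], [1], [0, 2], [1, 2, 0], [0, 2, 2, 0], [1, 2, 2, 2, 0], [0, 3, 3, 0], [1, 3, 0], [1, 2, 1], [2, 1], [0, 2, 1], [2, 1, 2, 0], [2, 0, 2, 2, 0], [2, 1, 2, 2, 2, 0], [2, 0, 3, 3, 0], [2, 2, 1], [2, 1, 2, 1], [1, 2, 2, 1], [2, 0, 2, 1], [2, 2, 1, 2, 0], [2, 2, 0, 2, 2, 0], [3, 0, 2, 2, 2, 1], [2, 2, 1, 2, 1], [2, 2, 2,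 1], [0, 2, 2, 2, 1], [2, 1, 2, 2, 1], [2, 2, 0, 2, 1], [3, 3, 0, 3, 1], [3, 1, 3, 3, 1], [3, 3, 1], [3, 1, 3, 1], [1, 3, 3, 1], [2, 0, 2, 2, 2, 1], [3, 3, 0, 3, 3, 0], [3, 3, 1, 3, 0], [3, 0, 3, 1], [1, 3, 1], [3, 1], [0, 3, 1], [3, 0, 2, 2, 0], [3, 1, 2, 2, 2, 0], [3, 0, 3, 3, 0], [3, 1, 3, 0]]

set_option maxRecDepth 100000 in
theorem pairs_ok : ∀ c d : Fin 8, c ≠ d →
    ∃ w ∈ pairW, (ev gA gB w).1 0 = c ∧ (ev gA gB w).1 1 = d := by
  decide +kernel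

theorem hgen : Subgroup.closure ({gA, gB} : Set (alternatingGroup (Fin 8))) = ⊤ := by
  set K := Subgroup.closure ({gA, gB} : Set (alternatingGroup (Fin 8))) with hK
  set H0 : Subgroup (Equiv.Perm (Fin 8)) := K.map (alternatingGroup (Fin 8)).subtype with hH0
  have hmemH0 : ∀ w : List ℕ, (ev gA gB w).1 ∈ H0 :=
    fun w => ⟨ev gA gB w, J1.ev_mem_closure gA gB w, rfl⟩
  have h2 : MulAction.IsMultiplyPretransitive H0 (Fin 8) 2 := by
    rw [MulAction.is_two_pretransitive_iff]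
    intro a b c d hab hcd
    obtain ⟨w1, -, e1, e2⟩ := pairs_ok a b hab
    obtain ⟨w2, -, e3, e4⟩ := pairs_ok c d hcd
    refine ⟨⟨(ev gA gB w2).1, hmemH0 w2⟩ * ⟨(ev gA gB w1).1, hmemH0 w1⟩⁻¹, ?_, ?_⟩
    · rw [mul_smul]
      have : (⟨(ev gA gB w1).1, hmemH0 w1⟩ : H0)⁻¹ • a = (0 : Fin 8) := by
        rw [inv_smul_eq_iff]
        exact e1.symm
      rw [this]
      exact e3
    · rw [mul_smul]
      have : (⟨(ev gA gB w1).1, hmemH0 w1⟩ : H0)⁻¹ • b = (1 : Fin 8) := by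
        rw [inv_smul_eq_iff]
        exact e2.symm
      rw [this]
      exact e4
  have hprim : MulAction.IsPreprimitive H0 (Fin 8) :=
    MulAction.isPreprimitive_of_is_two_pretransitive h2
  have h3 : Equiv.Perm.IsThreeCycle a8a :=
    Equiv.Perm.isThreeCycle_swap_mul_swap_same (by decide) (by decide) (by decide)
  have hA : a8a ∈ H0 := ⟨gA, Subgroup.subset_closure (by simp), rfl⟩
  have hle : alternatingGroup (Fin 8) ≤ H0 :=
    Equiv.Perm.alternatingGroup_le_of_isPreprimitive_of_isThreeCycle_mem hprim h3 hA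
  rw [eq_top_iff]
  intro x _
  obtain ⟨y, hy, hyx⟩ := hle x.2
  have : y = x := Subtype.ext hyx
  rw [← this]
  exact hy

end Cfsg.Agent.Helper17.SchurCos.An8
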