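import Mathlib
import Cfsg.Prelude.Def_KGroupFacts
import Cfsg.Agent.Helper17.TCIndex
import Cfsg.Agent.Helper17.TCUpper
import Cfsg.Agent.Helper17.L27.Iso
import Cfsg.Agent.Helper17.SchurCos.Core

/-!
# A stem extension with kernel of order six from a presentation (helper17)

Let `G = ⟨a, b⟩` be finite and let `P_A`, `P_B` be elements of a group `Q` such that the pairs
`(P_A, a)`, `(P_B, b)` satisfy a list of relators which bounds the order of any group generated
by two elements satisfying them by `6 |G|`.  If a word `z` is trivial in `G`, has order six in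
`Q` and commutes with the generators there, and the relators contain expressions of the
generators as products of commutators, then the subgroup of `Q × G` generated by the pairs is a
stem extension of `G` with cyclic kernel of order six.

The group `Q` is the group of permutations of the points of a checked coset enumeration.
-/

set_option autoImplicit false

namespace Cfsg.Agent.Helper17.SchurCos

open Cfsg.Agent.Helper17.TC Cfsg.Agent.Helper17.J1 Cfsg.Agent.Helper17.L27

section Perm

variable {c : Cert} (h : Checked c)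

/-- the first generating permutation -/
noncomputable def pA : Equiv.Perm (Fin c.N) := (permF h 0)⁻¹

/-- the second generating permutation -/
noncomputable def pB : Equiv.Perm (Fin c.N) := (permF h 2)⁻¹

theorem cols_perm (hnc : c.ncols = 4) (hinvc : c.invc = [1, 0, 3, 2]) :
    ∀ l < 4, cols (pA h) (pB h) l = (permF h l)⁻¹ := by
  intro l hl
  interval_cases l
  · rfl
  · have := permF_invc h (x := 0) (by rw [hnc]; norm_num)
    rw [hinvc] at this
    have e : getL [1, 0, 3, 2] 0 = 1 := rfl
    rw [e] at this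
    rw [this]
    rfl
  · rfl
  · have := permF_invc h (x := 2) (by rw [hnc]; norm_num)
    rw [hinvc] at this
    have e : getL [1, 0, 3, 2] 2 = 3 := rfl
    rw [e] at this
    rw [this]
    rfl

theorem prod_map_inv_rev {K : Type*} [Group K] (P : ℕ → K) (w : List ℕ) :
    (w.map fun x => (P x)⁻¹).prod = ((w.reverse.map P).prod)⁻¹ := by
  induction w with
  | nil => simp
  | cons a w ih =>
    rw [List.map_cons, List.prod_cons, ih, List.reverse_cons, List.map_append, List.prod_append,
      mul_inv_rev]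
    simp

theorem ev_perm (hnc : c.ncols = 4) (hinvc : c.invc = [1, 0, 3, 2]) (w : List ℕ)
    (hw : ∀ x ∈ w, x < 4) : ev (pA h) (pB h) w = ((w.reverse.map (permF h)).prod)⁻¹ := by
  rw [← prod_map_inv_rev]
  unfold ev
  congr 1
  apply List.map_congr_left
  intro x hx
  exact cols_perm h hnc hinvc x (hw x hx)

theorem ev_perm_apply (hnc : c.ncols = 4) (hinvc : c.invc = [1, 0, 3, 2]) (w : List ℕ)
    (hw : ∀ x ∈ w, x < 4) (v : Fin c.N) :
    ((((ev (pA h) (pB h) w)⁻¹ : Equiv.Perm (Fin c.N)) v : Fin c.N) : ℕ) = walkF c w v := by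
  rw [ev_perm h hnc hinvc w hw, inv_inv]
  exact permF_word h w (fun x hx => by rw [hnc]; exact hw x hx) v

theorem ev_perm_eq (hnc : c.ncols = 4) (hinvc : c.invc = [1, 0, 3, 2]) (w1 w2 : List ℕ)
    (hw1 : ∀ x ∈ w1, x < 4) (hw2 : ∀ x ∈ w2, x < 4)
    (heq : ∀ v < c.N, walkF c w1 v = walkF c w2 v) :
    ev (pA h) (pB h) w1 = ev (pA h) (pB h) w2 := by
  apply inv_injective
  ext v
  rw [ev_perm_apply h hnc hinvc w1 hw1, ev_perm_apply h hnc hinvc w2 hw2]
  exact heq v v.2

theorem ev_perm_ne (hnc : c.ncols = 4) (hinvc : c.invc = [1, 0, 3, 2]) (w1 w2 : List ℕ)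
    (hw1 : ∀ x ∈ w1, x < 4) (hw2 : ∀ x ∈ w2, x < 4) (v : ℕ) (hv : v < c.N)
    (hne : walkF c w1 v ≠ walkF c w2 v) :
    ev (pA h) (pB h) w1 ≠ ev (pA h) (pB h) w2 := by
  intro e
  apply hne
  have h1 := ev_perm_apply h hnc hinvc w1 hw1 ⟨v, hv⟩
  rw [e, ev_perm_apply h hnc hinvc w2 hw2 ⟨v, hv⟩] at h1
  exact h1.symm

theorem ev_perm_rel (hnc : c.ncols = 4) (hinvc : c.invc = [1, 0, 3, 2]) {w : List ℕ}
    (hw : w ∈ c.rels) : ev (pA h) (pB h) w = 1 := by
  rw [ev_perm h hnc hinvc w
    (fun x hx => by rw [← hnc]; exact (chkSmall_spec c h.small).2.2.2.1 w hw x hx),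
    permF_rel h hw, inv_one]

/-- a group generated by two elements satisfying the relators of a checked enumeration over
the cyclic subgroup generated by a word of finite order is finite of bounded order -/
theorem card_le_of_cert {K : Type*} [Group K] (hch : Checked c) (hnc : c.ncols = 4)
    (hinvc : c.invc = [1, 0, 3, 2]) (wu : List ℕ) (hsubs : c.subs = [wu]) (m : ℕ) (hm : 0 < m)
    (hum : poww wu m ∈ c.rels) (x y : K) (hgen : Subgroup.closure ({x, y} : Set K) = ⊤)
    (hR : ∀ r ∈ c.rels, ev x y r = 1) : Finite K ∧ Nat.card K ≤ c.N * m := by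
  have hsub : ∀ w ∈ c.subs, (w.map (cols x y)).prod ∈ Subgroup.zpowers (ev x y wu) := by
    intro w hw
    rw [hsubs, List.mem_singleton] at hw
    subst hw
    exact Subgroup.mem_zpowers _
  obtain ⟨hfin, hle⟩ := index_le (c := c) (Subgroup.zpowers (ev x y wu)) (cols x y) hch
    (by rw [hnc]; exact cols_gen' x y hgen) (by rw [hnc, hinvc]; exact cols_ginv' x y) hR hsub
  have hum' : ev x y wu ^ m = 1 := by
    rw [← ev_poww]
    exact hR _ hum
  have h3 : Nat.card (Subgroup.zpowers (ev x y wu)) ≤ m := by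
    rw [Nat.card_zpowers]
    exact orderOf_le_of_pow_eq_one hm hum'
  have h3' : Nat.card (Subgroup.zpowers (ev x y wu)) ≠ 0 := by
    rw [Nat.card_zpowers]
    exact (orderOf_pos_iff.2 (isOfFinOrder_iff_pow_eq_one.2 ⟨m, hm, hum'⟩)).ne'
  have h4 : (Subgroup.zpowers (ev x y wu)).index ≠ 0 := by
    rw [Subgroup.index]
    exact Nat.card_pos.ne'
  have hc := Subgroup.card_mul_index (Subgroup.zpowers (ev x y wu))
  have hK : Nat.card K ≠ 0 := by rw [← hc]; exact Nat.mul_ne_zero h3' h4
  refine ⟨Nat.finite_of_card_ne_zero hK, ?_⟩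
  rw [← hc, mul_comm]
  exact Nat.mul_le_mul hle h3

end Perm

theorem cev_mem_commutator {K : Type*} [Group K] (x y : K) (L : List (List ℕ × List ℕ)) :
    cev x y L ∈ commutator K := by
  unfold cev
  apply Subgroup.list_prod_mem
  intro g hg
  obtain ⟨p, -, rfl⟩ := List.mem_map.1 hg
  rw [← commutatorElement_def, commutator_def]
  exact Subgroup.commutator_mem_commutator (Subgroup.mem_top _) (Subgroup.mem_top _)

/-- **A stem extension with cyclic kernel of order six.** -/
theorem exists_cover_of_pres {G : Type} [Group G] [Finite G] {Q : Type} [Group Q]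
    (a b : G) (hgen : Subgroup.closure {a, b} = ⊤) (PA PB : Q) (rels : List (List ℕ))
    (hbound : ∀ (D : Subgroup (Q × G)) (x y : D), Subgroup.closure {x, y} = ⊤ →
      (∀ r ∈ rels, ev x y r = 1) → Finite D ∧ Nat.card D ≤ 6 * Nat.card G)
    (hRG : ∀ r ∈ rels, ev a b r = 1) (hRQ : ∀ r ∈ rels, ev PA PB r = 1)
    (CA CB : List (List ℕ × List ℕ)) (hCA : cw CA ++ [1] ∈ rels) (hCB : cw CB ++ [3] ∈ rels)
    (wz : List ℕ) (hzG : ev a b wz = 1)
    (hz6 : ev PA PB wz ^ 6 = 1) (hz2 : ev PA PB wz ^ 2 ≠ 1) (hz3 : ev PA PB wz ^ 3 ≠ 1)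
    (hzA : ev PA PB wz * PA = PA * ev PA PB wz) (hzB : ev PA PB wz * PB = PB * ev PA PB wz) :
    ∃ (Γ : Type) (_ : Group Γ) (_ : Finite Γ) (σ : Γ →* G),
      Cfsg.IsStemExtension σ ∧ Nonempty (σ.ker ≃* Multiplicative (ZMod 6)) := by
  classical
  let D : Subgroup (Q × G) := Subgroup.closure {(PA, a), (PB, b)}
  have hAD : (PA, a) ∈ D := Subgroup.subset_closure (by simp)
  have hBD : (PB, b) ∈ D := Subgroup.subset_closure (by simp)
  let A : D := ⟨(PA, a), hAD⟩
  let B : D := ⟨(PB, b), hBD⟩
  have hgenD : Subgroup.closure ({A, B} : Set D) = ⊤ := by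
    have := Subgroup.closure_closure_coe_preimage (k := ({(PA, a), (PB, b)} : Set (Q × G)))
    convert this using 2
    ext z
    simp only [Set.mem_insert_iff, Set.mem_singleton_iff, Set.mem_preimage]
    constructor
    · rintro (rfl | rfl)
      · left; rfl
      · right; rfl
    · rintro (h | h)
      · left; exact Subtype.ext h
      · right; exact Subtype.ext h
  have hev : ∀ w : List ℕ, ((ev A B w : D) : Q × G) = (ev PA PB w, ev a b w) := by
    intro w
    rw [coe_ev]
    apply Prod.ext
    · have := SchurCos.map_ev (MonoidHom.fst Q G) (PA, a) (PB, b) w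
      simp only [MonoidHom.coe_fst] at this
      exact this
    · have := SchurCos.map_ev (MonoidHom.snd Q G) (PA, a) (PB, b) w
      simp only [MonoidHom.coe_snd] at this
      exact this
  have hRD : ∀ r ∈ rels, ev A B r = 1 := by
    intro r hr
    apply Subtype.ext
    rw [hev, hRQ r hr, hRG r hr]
    rfl
  obtain ⟨hfinD, hcard⟩ := hbound D A B hgenD hRD
  let σ : D →* G := (MonoidHom.snd Q G).comp D.subtype
  have hσ : ∀ x : D, σ x = (x : Q × G).2 := fun x => rfl
  have hs : Function.Surjective σ := by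
    rw [← MonoidHom.range_eq_top, eq_top_iff, ← hgen, Subgroup.closure_le]
    rintro z (rfl | rfl)
    · exact ⟨A, rfl⟩
    · exact ⟨B, rfl⟩
  -- the central element
  have hzval : ((ev A B wz : D) : Q × G) = (ev PA PB wz, 1) := by rw [hev, hzG]
  generalize ev A B wz = z at hzval
  generalize ev PA PB wz = zQ at hzval hz6 hz2 hz3 hzA hzB
  have hzk : z ∈ σ.ker := by
    rw [MonoidHom.mem_ker, hσ, hzval]
  have hpow : ∀ k : ℕ, ((z ^ k : D) : Q × G) = (zQ ^ k, 1) := by
    intro k
    rw [Subgroup.coe_pow, hzval, Prod.pow_mk, one_pow]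
  have hz6' : z ^ 6 = 1 := by
    apply Subtype.ext
    rw [hpow, hz6]
    rfl
  have hz2' : z ^ 2 ≠ 1 := by
    intro e
    apply hz2
    have h1 : ((z ^ 2 : D) : Q × G).1 = 1 := by rw [e]; rfl
    rw [hpow] at h1
    exact h1
  have hz3' : z ^ 3 ≠ 1 := by
    intro e
    apply hz3
    have h1 : ((z ^ 3 : D) : Q × G).1 = 1 := by rw [e]; rfl
    rw [hpow] at h1
    exact h1
  have hord : orderOf z = 6 := by
    have hd : orderOf z ∣ 6 := orderOf_dvd_of_pow_eq_one hz6'
    have hle : orderOf z ≤ 6 := Nat.le_of_dvd (by norm_num) hd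
    have h2 : ¬ orderOf z ∣ 2 := fun h => hz2' (orderOf_dvd_iff_pow_eq_one.1 h)
    have h3 : ¬ orderOf z ∣ 3 := fun h => hz3' (orderOf_dvd_iff_pow_eq_one.1 h)
    generalize orderOf z = o at hd hle h2 h3
    interval_cases o <;> first | rfl | (exfalso; revert hd h2 h3; decide)
  -- the order of the kernel
  have hcK : Nat.card σ.ker * Nat.card G = Nat.card D := by
    have h1 := Subgroup.card_mul_index σ.ker
    rw [Subgroup.index_ker, MonoidHom.range_eq_top.2 hs, Subgroup.card_top] at h1
    exact h1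
  have hGpos : 0 < Nat.card G := Nat.card_pos
  have hK6 : Nat.card σ.ker ≤ 6 := by
    have : Nat.card σ.ker * Nat.card G ≤ 6 * Nat.card G := by rw [hcK]; exact hcard
    exact Nat.le_of_mul_le_mul_right this hGpos
  let z' : σ.ker := ⟨z, hzk⟩
  have hord' : orderOf z' = 6 := by
    rw [← hord]
    exact Subgroup.orderOf_mk z hzk
  have hcz : Nat.card (Subgroup.zpowers z') = 6 := by rw [Nat.card_zpowers, hord']
  have hztop : Subgroup.zpowers z' = ⊤ :=
    Subgroup.eq_top_of_le_card _ (by rw [hcz]; exact hK6)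
  have hcyc : IsCyclic σ.ker := isCyclic_iff_exists_zpowers_eq_top.2 ⟨z', hztop⟩
  have hcardK : Nat.card σ.ker = 6 := by
    have h1 : Nat.card (Subgroup.zpowers z') = Nat.card σ.ker := by
      rw [hztop, Subgroup.card_top]
    exact h1.symm.trans hcz
  -- centrality
  have hzc : ∀ g : D, g * z = z * g := by
    have hle : Subgroup.closure ({A, B} : Set D) ≤ Subgroup.centralizer {z} := by
      rw [Subgroup.closure_le]
      rintro g (rfl | rfl)
      · rw [SetLike.mem_coe, Subgroup.mem_centralizer_iff]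
        intro x hx
        rw [Set.mem_singleton_iff] at hx
        subst hx
        apply Subtype.ext
        rw [Subgroup.coe_mul, Subgroup.coe_mul, hzval]
        exact Prod.ext hzA ((one_mul a).trans (mul_one a).symm)
      · rw [SetLike.mem_coe, Subgroup.mem_centralizer_iff]
        intro x hx
        rw [Set.mem_singleton_iff] at hx
        subst hx
        apply Subtype.ext
        rw [Subgroup.coe_mul, Subgroup.coe_mul, hzval]
        exact Prod.ext hzB ((one_mul b).trans (mul_one b).symm)
    intro g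
    have hg : g ∈ Subgroup.centralizer {z} := hle (by rw [hgenD]; exact Subgroup.mem_top g)
    rw [Subgroup.mem_centralizer_iff] at hg
    exact (hg z rfl).symm
  have hzcen : z ∈ Subgroup.center D := Subgroup.mem_center_iff.2 hzc
  have hker_z : ∀ k ∈ σ.ker, k ∈ Subgroup.zpowers z := by
    intro k hk
    have hmem : (⟨k, hk⟩ : σ.ker) ∈ Subgroup.zpowers z' := by
      rw [hztop]
      exact Subgroup.mem_top _
    obtain ⟨i, hi⟩ := Subgroup.mem_zpowers_iff.1 hmem
    have h1 := congrArg Subtype.val hi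
    rw [Subgroup.coe_zpow] at h1
    exact Subgroup.mem_zpowers_iff.2 ⟨i, h1⟩
  -- perfectness
  have hA : A ∈ commutator D := by
    have e := hRD _ hCA
    rw [ev_append, ev_cw, ev_cons, ev_nil, mul_one] at e
    have e' : cev A B CA = A := by
      have e2 : cev A B CA * A⁻¹ = 1 := e
      exact mul_inv_eq_one.1 e2
    rw [← e']
    exact cev_mem_commutator A B CA
  have hB : B ∈ commutator D := by
    have e := hRD _ hCB
    rw [ev_append, ev_cw, ev_cons, ev_nil, mul_one] at e
    have e' : cev A B CB = B := by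
      have e2 : cev A B CB * B⁻¹ = 1 := e
      exact mul_inv_eq_one.1 e2
    rw [← e']
    exact cev_mem_commutator A B CB
  have htop : commutator D = ⊤ := by
    rw [eq_top_iff, ← hgenD, Subgroup.closure_le]
    rintro g (rfl | rfl)
    · exact hA
    · exact hB
  refine ⟨D, inferInstance, hfinD, σ, ⟨hs, ?_, ?_⟩, ?_⟩
  · intro k hk
    obtain ⟨i, rfl⟩ := Subgroup.mem_zpowers_iff.1 (hker_z k hk)
    exact Subgroup.zpow_mem _ hzcen i
  · intro k _
    rw [htop]
    exact Subgroup.mem_top k
  · have hc6 : Nat.card (Multiplicative (ZMod 6)) = 6 := by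
      rw [Nat.card_eq_fintype_card]
      rfl
    exact ⟨mulEquivOfCyclicCardEq (hcardK.trans hc6.symm)⟩

end Cfsg.Agent.Helper17.SchurCos
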