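import Mathlib
import Cfsg.Prelude.Def_SporadicB
import Cfsg.Agent.Helper17.SchurCos.CovGen

/-!
# A non-split double cover with a non-central involution from a presentation (helper17)

The construction of `SchurCos.CovGen` for a kernel of order two, for a group `G` with trivial
centre: the subgroup of `Q × G` generated by the pairs is a non-split double cover of `G`; a
word whose value is an involution on both sides and non-trivial in `G` gives a second element
of order two.
-/

set_option autoImplicit false

namespace Cfsg.Agent.Helper17.SchurCos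

open Cfsg.Agent.Helper17.TC Cfsg.Agent.Helper17.J1 Cfsg.Agent.Helper17.L27

/-- **A non-split double cover with two involutions.** -/
theorem exists_double_cover_of_pres {G : Type} [Group G] [Finite G] {Q : Type} [Group Q]
    (hcen : Subgroup.center G = ⊥)
    (a b : G) (hgen : Subgroup.closure {a, b} = ⊤) (PA PB : Q) (rels : List (List ℕ))
    (hbound : ∀ (D : Subgroup (Q × G)) (x y : D), Subgroup.closure {x, y} = ⊤ →
      (∀ r ∈ rels, ev x y r = 1) → Finite D ∧ Nat.card D ≤ 2 * Nat.card G)
    (hRG : ∀ r ∈ rels, ev a b r = 1) (hRQ : ∀ r ∈ rels, ev PA PB r = 1)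
    (CA CB : List (List ℕ × List ℕ)) (hCA : cw CA ++ [1] ∈ rels) (hCB : cw CB ++ [3] ∈ rels)
    (wz : List ℕ) (hzG : ev a b wz = 1)
    (hz2 : ev PA PB wz ^ 2 = 1) (hz1 : ev PA PB wz ≠ 1)
    (hzA : ev PA PB wz * PA = PA * ev PA PB wz) (hzB : ev PA PB wz * PB = PB * ev PA PB wz)
    (wt : List ℕ) (htG1 : ev a b wt ≠ 1) (htG2 : ev a b wt ^ 2 = 1)
    (htQ : ev PA PB wt ^ 2 = 1) :
    ∃ (H : Type) (_ : Group H) (_ : Finite H), Cfsg.IsNonsplitDoubleCover H G ∧
      ∃ x y : H, x ≠ y ∧ orderOf x = 2 ∧ orderOf y = 2 := by
  classical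
  let D : Subgroup (Q × G) := Subgroup.closure {(PA, a), (PB, b)}
  have hAD : (PA, a) ∈ D := Subgroup.subset_closure (by simp)
  have hBD : (PB, b) ∈ D := Subgroup.subset_closure (by simp)
  let A : D := ⟨(PA, a), hAD⟩
  let B : D := ⟨(PB, b), hBD⟩
  have hgenD : Subgroup.closure ({A, B} : Set D) = ⊤ := by
    have := Subgroup.closure_closure_coe_preimage (k := ({(PA, a), (PB, b)} : Set (Q × G)))
    convert this using 2
    ext z
    simp only [Set.mem_insert_iff, Set.mem_singleton_iff, Set.mem_preimage]
    constructor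
    · rintro (rfl | rfl)
      · left; rfl
      · right; rfl
    · rintro (h | h)
      · left; exact Subtype.ext h
      · right; exact Subtype.ext h
  have hev : ∀ w : List ℕ, ((ev A B w : D) : Q × G) = (ev PA PB w, ev a b w) := by
    intro w
    rw [coe_ev]
    apply Prod.ext
    · have := SchurCos.map_ev (MonoidHom.fst Q G) (PA, a) (PB, b) w
      simp only [MonoidHom.coe_fst] at this
      exact this
    · have := SchurCos.map_ev (MonoidHom.snd Q G) (PA, a) (PB, b) w
      simp only [MonoidHom.coe_snd] at this
      exact this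
  have hRD : ∀ r ∈ rels, ev A B r = 1 := by
    intro r hr
    apply Subtype.ext
    rw [hev, hRQ r hr, hRG r hr]
    rfl
  obtain ⟨hfinD, hcard⟩ := hbound D A B hgenD hRD
  let σ : D →* G := (MonoidHom.snd Q G).comp D.subtype
  have hσ : ∀ x : D, σ x = (x : Q × G).2 := fun x => rfl
  have hs : Function.Surjective σ := by
    rw [← MonoidHom.range_eq_top, eq_top_iff, ← hgen, Subgroup.closure_le]
    rintro z (rfl | rfl)
    · exact ⟨A, rfl⟩
    · exact ⟨B, rfl⟩
  -- the second involution
  have htval : ((ev A B wt : D) : Q × G) = (ev PA PB wt, ev a b wt) := hev wt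
  generalize ev A B wt = T at htval
  generalize ev PA PB wt = tQ at htval htQ
  generalize ev a b wt = tG at htval htG1 htG2
  -- the central element
  have hzval : ((ev A B wz : D) : Q × G) = (ev PA PB wz, 1) := by rw [hev, hzG]
  generalize ev A B wz = z at hzval
  generalize ev PA PB wz = zQ at hzval hz2 hz1 hzA hzB
  have hzk : z ∈ σ.ker := by
    rw [MonoidHom.mem_ker, hσ, hzval]
  have hz2' : z ^ 2 = 1 := by
    apply Subtype.ext
    rw [Subgroup.coe_pow, hzval, Prod.pow_mk, one_pow, hz2]
    rfl
  have hz1' : z ≠ 1 := by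
    intro e
    apply hz1
    have h1 : ((z : D) : Q × G).1 = 1 := by rw [e]; rfl
    rw [hzval] at h1
    exact h1
  have hord : orderOf z = 2 := by
    have : Fact (Nat.Prime 2) := ⟨Nat.prime_two⟩
    exact orderOf_eq_prime hz2' hz1'
  -- the order of the kernel
  have hcK : Nat.card σ.ker * Nat.card G = Nat.card D := by
    have h1 := Subgroup.card_mul_index σ.ker
    rw [Subgroup.index_ker, MonoidHom.range_eq_top.2 hs, Subgroup.card_top] at h1
    exact h1
  have hGpos : 0 < Nat.card G := Nat.card_pos
  have hK2 : Nat.card σ.ker ≤ 2 := by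
    have : Nat.card σ.ker * Nat.card G ≤ 2 * Nat.card G := by rw [hcK]; exact hcard
    exact Nat.le_of_mul_le_mul_right this hGpos
  let z' : σ.ker := ⟨z, hzk⟩
  have hord' : orderOf z' = 2 := by
    rw [← hord]
    exact Subgroup.orderOf_mk z hzk
  have hcz : Nat.card (Subgroup.zpowers z') = 2 := by rw [Nat.card_zpowers, hord']
  have hztop : Subgroup.zpowers z' = ⊤ :=
    Subgroup.eq_top_of_le_card _ (by rw [hcz]; exact hK2)
  have hcardK : Nat.card σ.ker = 2 := by
    have h1 : Nat.card (Subgroup.zpowers z') = Nat.card σ.ker := by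
      rw [hztop, Subgroup.card_top]
    exact h1.symm.trans hcz
  -- centrality
  have hzc : ∀ g : D, g * z = z * g := by
    have hle : Subgroup.closure ({A, B} : Set D) ≤ Subgroup.centralizer {z} := by
      rw [Subgroup.closure_le]
      rintro g (rfl | rfl)
      · rw [SetLike.mem_coe, Subgroup.mem_centralizer_iff]
        intro x hx
        rw [Set.mem_singleton_iff] at hx
        subst hx
        apply Subtype.ext
        rw [Subgroup.coe_mul, Subgroup.coe_mul, hzval]
        exact Prod.ext hzA ((one_mul a).trans (mul_one a).symm)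
      · rw [SetLike.mem_coe, Subgroup.mem_centralizer_iff]
        intro x hx
        rw [Set.mem_singleton_iff] at hx
        subst hx
        apply Subtype.ext
        rw [Subgroup.coe_mul, Subgroup.coe_mul, hzval]
        exact Prod.ext hzB ((one_mul b).trans (mul_one b).symm)
    intro g
    have hg : g ∈ Subgroup.centralizer {z} := hle (by rw [hgenD]; exact Subgroup.mem_top g)
    rw [Subgroup.mem_centralizer_iff] at hg
    exact (hg z rfl).symm
  have hzcen : z ∈ Subgroup.center D := Subgroup.mem_center_iff.2 hzc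
  have hker_z : ∀ k ∈ σ.ker, k ∈ Subgroup.zpowers z := by
    intro k hk
    have hmem : (⟨k, hk⟩ : σ.ker) ∈ Subgroup.zpowers z' := by
      rw [hztop]
      exact Subgroup.mem_top _
    obtain ⟨i, hi⟩ := Subgroup.mem_zpowers_iff.1 hmem
    have h1 := congrArg Subtype.val hi
    rw [Subgroup.coe_zpow] at h1
    exact Subgroup.mem_zpowers_iff.2 ⟨i, h1⟩
  -- perfectness
  have hA : A ∈ commutator D := by
    have e := hRD _ hCA
    rw [ev_append, ev_cw, ev_cons, ev_nil, mul_one] at e
    have e' : cev A B CA = A := by
      have e2 : cev A B CA * A⁻¹ = 1 := e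
      exact mul_inv_eq_one.1 e2
    rw [← e']
    exact cev_mem_commutator A B CA
  have hB : B ∈ commutator D := by
    have e := hRD _ hCB
    rw [ev_append, ev_cw, ev_cons, ev_nil, mul_one] at e
    have e' : cev A B CB = B := by
      have e2 : cev A B CB * B⁻¹ = 1 := e
      exact mul_inv_eq_one.1 e2
    rw [← e']
    exact cev_mem_commutator A B CB
  have htop : commutator D = ⊤ := by
    rw [eq_top_iff, ← hgenD, Subgroup.closure_le]
    rintro g (rfl | rfl)
    · exact hA
    · exact hB
  -- the centre is the kernel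
  have hceq : Subgroup.center D = σ.ker := by
    apply le_antisymm
    · intro c hc
      rw [MonoidHom.mem_ker]
      have hcG : σ c ∈ Subgroup.center G := by
        rw [Subgroup.mem_center_iff]
        intro g
        obtain ⟨g', rfl⟩ := hs g
        rw [← map_mul, ← map_mul, (Subgroup.mem_center_iff.1 hc g')]
      rw [hcen, Subgroup.mem_bot] at hcG
      exact hcG
    · intro k hk
      obtain ⟨i, rfl⟩ := Subgroup.mem_zpowers_iff.1 (hker_z k hk)
      exact Subgroup.zpow_mem _ hzcen i
  have hccard : Nat.card (Subgroup.center D) = 2 := by rw [hceq]; exact hcardK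
  refine ⟨D, inferInstance, hfinD, ⟨hccard, ?_, ?_⟩, z, T, ?_, hord, ?_⟩
  · exact ⟨(QuotientGroup.quotientMulEquivOfEq hceq).trans
      (QuotientGroup.quotientKerEquivOfSurjective σ hs)⟩
  · intro L hL
    have hmul := hL.card_mul_card
    rw [hccard] at hmul
    have hidx : L.index = 2 := by
      have h1 := Subgroup.card_mul_index L
      rw [← hmul] at h1
      have hLpos : 0 < Nat.card L := Nat.card_pos
      have h2 : Nat.card L * L.index = Nat.card L * 2 := by rw [h1, mul_comm]
      exact Nat.eq_of_mul_eq_mul_left hLpos h2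
    have hLn : L.Normal := Subgroup.normal_of_index_eq_two hidx
    have hq : Nat.card (D ⧸ L) = 2 := hidx
    have : Fact (Nat.Prime 2) := ⟨Nat.prime_two⟩
    have hcyc : IsCyclic (D ⧸ L) := isCyclic_of_prime_card hq
    let _ : CommGroup (D ⧸ L) := IsCyclic.commGroup
    have hle : commutator D ≤ (QuotientGroup.mk' L).ker :=
      Abelianization.commutator_subset_ker (QuotientGroup.mk' L)
    rw [QuotientGroup.ker_mk', htop] at hle
    have hLtop : L = ⊤ := top_le_iff.1 hle
    rw [hLtop, Subgroup.index_top] at hidx
    exact absurd hidx (by norm_num)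
  · intro e
    have h1 : ((z : D) : Q × G).2 = ((T : D) : Q × G).2 := by rw [e]
    rw [hzval, htval] at h1
    exact htG1 h1.symm
  · have : Fact (Nat.Prime 2) := ⟨Nat.prime_two⟩
    apply orderOf_eq_prime
    · apply Subtype.ext
      rw [Subgroup.coe_pow, htval, Prod.pow_mk, htQ, htG2]
      rfl
    · intro e
      have h1 : ((T : D) : Q × G).2 = 1 := by rw [e]; rfl
      rw [htval] at h1
      exact htG1 h1

end Cfsg.Agent.Helper17.SchurCos
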