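import Mathlib
import Cfsg.Agent.Helper17.SchurCos.CovGen2
import Cfsg.Agent.Helper17.SchurCos.An8Gen
import Cfsg.Agent.Helper17.TCD.A8C_Chk

/-!
# The double cover of the alternating group of degree 8 (helper17)

A non-split double cover of `A₈` with an element of order two outside the centre, as a group
of pairs of a permutation of the 2688 points of a coset enumeration and an even permutation
of degree 8; the second involution lies over the fixed-point-free involution `b ^ 3`.
-/

set_option autoImplicit false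

namespace Cfsg.Agent.Helper17.SchurCos.An8

open Cfsg Cfsg.Agent.Helper17 Cfsg.Agent.Helper17.J1 Cfsg.Agent.Helper17.SchurCos
open Cfsg.Agent.Helper17.TC

/-- the word of the central element -/
def wzL : List ℕ := [0, 0, 0]

/-- the word generating the subgroup of the enumeration -/
def wuL : List ℕ := [2, 2, 0]

/-- the word of the second involution -/
def wtL : List ℕ := [2, 2, 2]

/-- the first generator as a commutator -/
def CAL : List (List ℕ × List ℕ) := [([3, 1, 2], [2, 1, 3, 1])]

/-- the second generator as a commutator -/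
def CBL : List (List ℕ × List ℕ) := [([0, 3, 3, 0, 2], [1, 3, 3, 1, 3, 1])]

/-- the first generating permutation of the points -/
noncomputable def qA : Equiv.Perm (Fin TCD.A8C.cert.N) := pA TCD.A8C.checked

/-- the second generating permutation of the points -/
noncomputable def qB : Equiv.Perm (Fin TCD.A8C.cert.N) := pB TCD.A8C.checked

set_option maxRecDepth 100000 in
theorem hRG : ∀ r ∈ TCD.A8C.relsL, ev gA gB r = 1 := by decide +kernel

theorem hRQ : ∀ r ∈ TCD.A8C.relsL, ev qA qB r = 1 :=
  fun _ hr => ev_perm_rel TCD.A8C.checked rfl rfl hr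

theorem hbound (D : Subgroup (Equiv.Perm (Fin TCD.A8C.cert.N) × ↥(alternatingGroup (Fin 8))))
    (x y : D) (hgenD : Subgroup.closure {x, y} = ⊤)
    (hR : ∀ r ∈ TCD.A8C.relsL, ev x y r = 1) :
    Finite D ∧ Nat.card D ≤ 2 * Nat.card (alternatingGroup (Fin 8)) := by
  obtain ⟨hf, hle⟩ := card_le_of_cert (c := TCD.A8C.cert) TCD.A8C.checked rfl rfl wuL rfl 15
    (by norm_num) (by decide) x y hgenD hR
  refine ⟨hf, ?_⟩
  rw [card_A8]
  exact hle.trans (by decide)

set_option maxRecDepth 100000 in
theorem hzG : ev gA gB wzL = 1 := by decide +kernel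

theorem hz2 : ev qA qB wzL ^ 2 = 1 := by
  have e := ev_perm_rel TCD.A8C.checked rfl rfl (w := poww wzL 2) (by decide)
  rw [ev_poww] at e
  exact e

theorem hz1 : ev qA qB wzL ≠ 1 := by
  have e := ev_perm_ne TCD.A8C.checked rfl rfl wzL [] (by decide) (by decide) 0
    (by decide) (by decide +kernel)
  rw [ev_nil] at e
  exact e

theorem hzA : ev qA qB wzL * qA = qA * ev qA qB wzL := by
  have e := ev_perm_rel TCD.A8C.checked rfl rfl (w := wzL ++ [0] ++ invw wzL ++ [1])
    (by decide)
  rw [ev_append, ev_append, ev_append, ev_invw, ev_cons, ev_nil, ev_cons, ev_nil, mul_one,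
    mul_one] at e
  have e2 : ev qA qB wzL * qA * (ev qA qB wzL)⁻¹ * qA⁻¹ = 1 := e
  exact mul_inv_eq_iff_eq_mul.1 (mul_inv_eq_one.1 e2)

theorem hzB : ev qA qB wzL * qB = qB * ev qA qB wzL := by
  have e := ev_perm_rel TCD.A8C.checked rfl rfl (w := wzL ++ [2] ++ invw wzL ++ [3])
    (by decide)
  rw [ev_append, ev_append, ev_append, ev_invw, ev_cons, ev_nil, ev_cons, ev_nil, mul_one,
    mul_one] at e
  have e2 : ev qA qB wzL * qB * (ev qA qB wzL)⁻¹ * qB⁻¹ = 1 := e
  exact mul_inv_eq_iff_eq_mul.1 (mul_inv_eq_one.1 e2)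

set_option maxRecDepth 100000 in
theorem htG : ev gA gB wtL ≠ 1 ∧ ev gA gB wtL ^ 2 = 1 := by decide +kernel

theorem htQ : ev qA qB wtL ^ 2 = 1 := by
  have e := ev_perm_rel TCD.A8C.checked rfl rfl (w := poww wtL 2) (by decide)
  rw [ev_poww] at e
  exact e

/-- a finite non-split double cover of the alternating group of degree 8 with two distinct
elements of order two -/
theorem double_cover : ∃ (H : Type) (_ : Group H) (_ : Finite H),
    Cfsg.IsNonsplitDoubleCover H ↥(alternatingGroup (Fin 8)) ∧
      ∃ x y : H, x ≠ y ∧ orderOf x = 2 ∧ orderOf y = 2 :=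
  exists_double_cover_of_pres (alternatingGroup.center_eq_bot (by simp)) gA gB hgen qA qB
    TCD.A8C.relsL hbound hRG hRQ CAL CBL (by decide) (by decide) wzL hzG hz2 hz1 hzA hzB wtL
    htG.1 htG.2 htQ

end Cfsg.Agent.Helper17.SchurCos.An8
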