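import Mathlib
import Cfsg.Prelude.Def_SporadicB
import Cfsg.Prelude.Def_KGroupFacts

/-!
# Involutions in non-split double covers (helper17)

Abstract lemmas on a finite group `H` whose centre has order two and does not split off:
* over a perfect quotient the projection is a stem extension;
* if the preimage of a cyclic subgroup containing an involution `t` has at most one element of
  order two and every involution of the quotient is conjugate to `t`, every element of order
  two of `H` is central;
* the same conclusion by transfer into a Sylow 2-subgroup when the quotient has no elements of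
  order four, its involutions are conjugate and it is generated by elements of order three.
-/

set_option autoImplicit false

namespace Cfsg.Agent.Helper17.SchurCos

/-- two elements of order two of a subgroup of order two are equal -/
theorem eq_of_orderOf_two_of_mem {H : Type*} [Group H] (Z : Subgroup H) (hZ : Nat.card Z = 2)
    {x y : H} (hx : x ∈ Z) (hy : y ∈ Z) (hx2 : orderOf x = 2) (hy2 : orderOf y = 2) : x = y := by
  obtain ⟨w, -, huniq⟩ := (Nat.card_eq_two_iff' (1 : Z)).1 hZ
  have hx1 : (⟨x, hx⟩ : Z) ≠ 1 := by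
    intro e
    have : x = 1 := congrArg Subtype.val e
    rw [this, orderOf_one] at hx2
    exact absurd hx2 (by norm_num)
  have hy1 : (⟨y, hy⟩ : Z) ≠ 1 := by
    intro e
    have : y = 1 := congrArg Subtype.val e
    rw [this, orderOf_one] at hy2
    exact absurd hy2 (by norm_num)
  have := (huniq _ hx1).trans (huniq _ hy1).symm
  exact congrArg Subtype.val this

/-- the non-trivial element of a centre of order two -/
theorem exists_central_invol {H : Type*} [Group H]
    (hZ : Nat.card (Subgroup.center H) = 2) :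
    ∃ z ∈ Subgroup.center H, z ≠ 1 ∧ z ^ 2 = 1 ∧ orderOf z = 2 ∧
      ∀ w ∈ Subgroup.center H, w = 1 ∨ w = z := by
  obtain ⟨w, hw, huniq⟩ := (Nat.card_eq_two_iff' (1 : Subgroup.center H)).1 hZ
  have hfin : Finite (Subgroup.center H) := Nat.finite_of_card_ne_zero (by rw [hZ]; norm_num)
  have hw2 : w ^ 2 = 1 := by rw [← hZ]; exact pow_card_eq_one'
  have hz1 : (w : H) ≠ 1 := fun e => hw (Subtype.ext e)
  have hz2 : (w : H) ^ 2 = 1 := by
    have := congrArg Subtype.val hw2
    rw [Subgroup.coe_pow] at this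
    exact this
  have : Fact (Nat.Prime 2) := ⟨Nat.prime_two⟩
  refine ⟨w.1, w.2, hz1, hz2, orderOf_eq_prime hz2 hz1, fun v hv => ?_⟩
  by_cases hv1 : v = 1
  · exact Or.inl hv1
  · right
    have : (⟨v, hv⟩ : Subgroup.center H) ≠ 1 := fun e => hv1 (congrArg Subtype.val e)
    exact congrArg Subtype.val (huniq _ this)

/-- over a perfect group a non-split double cover is a stem extension -/
theorem stem_of_nonsplit {H G : Type*} [Group H] [Group G] (hG : commutator G = ⊤)
    (hZ : Nat.card (Subgroup.center H) = 2) (π : H →* G) (hπ : Function.Surjective π)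
    (hker : π.ker = Subgroup.center H)
    (hns : ∀ L : Subgroup H, ¬ (Subgroup.center H).IsComplement' L) :
    Cfsg.IsStemExtension π := by
  refine ⟨hπ, hker.le, ?_⟩
  by_contra hnot
  obtain ⟨z, hzc, hz1, -, -, hall⟩ := exists_central_invol hZ
  have hmap : (commutator H).map π = ⊤ := by
    rw [commutator_def, Subgroup.map_commutator, ← MonoidHom.range_eq_map,
      MonoidHom.range_eq_top.2 hπ, ← commutator_def, hG]
  apply hns (commutator H)
  apply Subgroup.isComplement'_of_disjoint_and_mul_eq_univ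
  · rw [Subgroup.disjoint_def]
    intro w hwc hwk
    by_contra hw1
    apply hnot
    rw [hker]
    intro v hv
    rcases hall v hv with rfl | rfl
    · exact Subgroup.one_mem _
    · rcases hall w hwc with rfl | rfl
      · exact absurd rfl hw1
      · exact hwk
  · rw [Set.eq_univ_iff_forall]
    intro h
    have hmem : π h ∈ (commutator H).map π := by rw [hmap]; exact Subgroup.mem_top _
    obtain ⟨k, hk, hkh⟩ := hmem
    refine Set.mem_mul.2 ⟨h * k⁻¹, ?_, k, hk, by group⟩
    rw [SetLike.mem_coe, ← hker, MonoidHom.mem_ker, map_mul, map_inv, hkh, mul_inv_cancel]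

/-- elements of order two are central when the preimage of a cyclic subgroup through an
involution has a single element of order two and the involutions of the quotient are
conjugate -/
theorem central_invol_of_cyclic {H G : Type*} [Group H] [Group G]
    (π : H →* G) (hπ : Function.Surjective π) (hker : π.ker = Subgroup.center H)
    (hZ : Nat.card (Subgroup.center H) = 2)
    (t : G) (C : Subgroup G) (ht : t ∈ C) (ht1 : t ≠ 1)
    (huniq : ∀ x y : H, π x ∈ C → π y ∈ C → orderOf x = 2 → orderOf y = 2 → x = y)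
    (hG2 : ∀ u : G, u ≠ 1 → u ^ 2 = 1 → ∃ g, g * u * g⁻¹ = t)
    (x : H) (hx : orderOf x = 2) : x ∈ Subgroup.center H := by
  by_contra hxc
  obtain ⟨z, hzc, hz1, hz2, hzo, -⟩ := exists_central_invol hZ
  have hx2 : x ^ 2 = 1 := by rw [← hx]; exact pow_orderOf_eq_one x
  have hu1 : π x ≠ 1 := by
    intro e
    apply hxc
    rw [← hker]
    exact MonoidHom.mem_ker.2 e
  have hu2 : π x ^ 2 = 1 := by rw [← map_pow, hx2, map_one]
  obtain ⟨g, hg⟩ := hG2 (π x) hu1 hu2
  obtain ⟨g', rfl⟩ := hπ g
  have hx' : π (g' * x * g'⁻¹) = t := by rw [map_mul, map_mul, map_inv, hg]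
  have hx'1 : g' * x * g'⁻¹ ≠ 1 := by
    intro e
    rw [e, map_one] at hx'
    exact ht1 hx'.symm
  have hx'2 : (g' * x * g'⁻¹) ^ 2 = 1 := by
    rw [conj_pow, hx2, mul_one, mul_inv_cancel]
  have : Fact (Nat.Prime 2) := ⟨Nat.prime_two⟩
  have hx'o : orderOf (g' * x * g'⁻¹) = 2 := orderOf_eq_prime hx'2 hx'1
  have hπz : π z = 1 := by
    rw [← MonoidHom.mem_ker, hker]
    exact hzc
  have e := huniq (g' * x * g'⁻¹) z (by rw [hx']; exact ht) (by rw [hπz]; exact C.one_mem)
    hx'o hzo
  rw [e, hπz] at hx'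
  exact ht1 hx'.symm

/-- elements of order two are central, by transfer into a Sylow 2-subgroup of exponent two -/
theorem central_invol_of_transfer {H G : Type*} [Group H] [Finite H] [Group G]
    (π : H →* G) (hπ : Function.Surjective π) (hker : π.ker = Subgroup.center H)
    (hZ : Nat.card (Subgroup.center H) = 2)
    (hns : ∀ L : Subgroup H, ¬ (Subgroup.center H).IsComplement' L)
    (hG1 : ∀ g : G, g ^ 2 = 1 ∨ g ^ 3 = 1 ∨ g ^ 5 = 1)
    (hG2 : ∀ u v : G, u ≠ 1 → u ^ 2 = 1 → v ≠ 1 → v ^ 2 = 1 → ∃ g, g * u * g⁻¹ = v)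
    (hG3 : Subgroup.closure {g : G | g ^ 3 = 1} = ⊤)
    (x : H) (hx : orderOf x = 2) : x ∈ Subgroup.center H := by
  by_contra hxc
  obtain ⟨z, hzc, hz1, hz2, hzo, hall⟩ := exists_central_invol hZ
  have hx2 : x ^ 2 = 1 := by rw [← hx]; exact pow_orderOf_eq_one x
  have hu1 : π x ≠ 1 := by
    intro e
    apply hxc
    rw [← hker]
    exact MonoidHom.mem_ker.2 e
  have hu2 : π x ^ 2 = 1 := by rw [← map_pow, hx2, map_one]
  have hcen2 : ∀ w ∈ Subgroup.center H, w ^ 2 = 1 := by
    intro w hw
    rcases hall w hw with rfl | rfl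
    · exact one_pow 2
    · exact hz2
  have : Fact (Nat.Prime 2) := ⟨Nat.prime_two⟩
  obtain ⟨P⟩ : Nonempty (Sylow 2 H) := inferInstance
  -- the Sylow subgroup has exponent two
  have hexp : ∀ p ∈ (P : Subgroup H), p ^ 2 = 1 := by
    intro p hp
    obtain ⟨k, hk⟩ := P.isPGroup' ⟨p, hp⟩
    have hk' : p ^ 2 ^ k = 1 := by
      have := congrArg Subtype.val hk
      rw [Subgroup.coe_pow] at this
      exact this
    have hπk : π p ^ 2 ^ k = 1 := by rw [← map_pow, hk', map_one]
    have hπ2 : π p ^ 2 = 1 := by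
      rcases hG1 (π p) with h | h | h
      · exact h
      · have hd : orderOf (π p) ∣ Nat.gcd (2 ^ k) 3 :=
          Nat.dvd_gcd (orderOf_dvd_of_pow_eq_one hπk) (orderOf_dvd_of_pow_eq_one h)
        have hc : Nat.gcd (2 ^ k) 3 = 1 := Nat.Coprime.pow_left k (by norm_num)
        rw [hc, Nat.dvd_one, orderOf_eq_one_iff] at hd
        rw [hd, one_pow]
      · have hd : orderOf (π p) ∣ Nat.gcd (2 ^ k) 5 :=
          Nat.dvd_gcd (orderOf_dvd_of_pow_eq_one hπk) (orderOf_dvd_of_pow_eq_one h)
        have hc : Nat.gcd (2 ^ k) 5 = 1 := Nat.Coprime.pow_left k (by norm_num)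
        rw [hc, Nat.dvd_one, orderOf_eq_one_iff] at hd
        rw [hd, one_pow]
    by_cases hp1 : π p = 1
    · exact hcen2 p (by rw [← hker]; exact MonoidHom.mem_ker.2 hp1)
    · obtain ⟨g, hg⟩ := hG2 (π x) (π p) hu1 hu2 hp1 hπ2
      obtain ⟨g', rfl⟩ := hπ g
      have hc : p * (g' * x * g'⁻¹)⁻¹ ∈ Subgroup.center H := by
        rw [← hker, MonoidHom.mem_ker, map_mul, map_inv, map_mul, map_mul, map_inv, hg,
          mul_inv_cancel]
      have hcomm : Commute (p * (g' * x * g'⁻¹)⁻¹) (g' * x * g'⁻¹) :=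
        (Subgroup.mem_center_iff.1 hc (g' * x * g'⁻¹)).symm
      calc p ^ 2 = ((p * (g' * x * g'⁻¹)⁻¹) * (g' * x * g'⁻¹)) ^ 2 := by
            rw [inv_mul_cancel_right]
        _ = (p * (g' * x * g'⁻¹)⁻¹) ^ 2 * (g' * x * g'⁻¹) ^ 2 := hcomm.mul_pow 2
        _ = 1 := by rw [hcen2 _ hc, conj_pow, hx2, mul_one, mul_inv_cancel, mul_one]
  -- hence it is commutative
  have hPcomm : ∀ p q : ↥(P : Subgroup H), p * q = q * p := by
    intro p q
    have h1 : (p * q) * (p * q) = 1 := by
      apply Subtype.ext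
      have := hexp _ (p * q).2
      rw [pow_two] at this
      exact this
    have h2 : p * p = 1 := by
      apply Subtype.ext
      have := hexp _ p.2
      rw [pow_two] at this
      exact this
    have h3 : q * q = 1 := by
      apply Subtype.ext
      have := hexp _ q.2
      rw [pow_two] at this
      exact this
    have hpi : p⁻¹ = p := inv_eq_of_mul_eq_one_left h2
    have hqi : q⁻¹ = q := inv_eq_of_mul_eq_one_left h3
    have hpqi : (p * q)⁻¹ = p * q := inv_eq_of_mul_eq_one_left h1
    calc p * q = (p * q)⁻¹ := hpqi.symm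
      _ = q⁻¹ * p⁻¹ := mul_inv_rev p q
      _ = q * p := by rw [hpi, hqi]
  -- the transfer into the abelianisation of the Sylow subgroup
  let ϕ : ↥(P : Subgroup H) →* Abelianization ↥(P : Subgroup H) := Abelianization.of
  let V : H →* Abelianization ↥(P : Subgroup H) := MonoidHom.transfer ϕ
  have hϕinj : ∀ p : ↥(P : Subgroup H), ϕ p = 1 → p = 1 := by
    intro p hp
    have h1 : p ∈ commutator ↥(P : Subgroup H) := by
      rw [← Abelianization.ker_of]
      exact MonoidHom.mem_ker.2 hp
    have h2 : commutator ↥(P : Subgroup H) ≤ ⊥ := by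
      rw [commutator_def, Subgroup.commutator_le]
      intro g _ h _
      rw [Subgroup.mem_bot, commutatorElement_eq_one_iff_mul_comm]
      exact hPcomm g h
    exact Subgroup.mem_bot.1 (h2 h1)
  have hidx : ¬ 2 ∣ (P : Subgroup H).index := P.not_dvd_index
  have hVz : V z ≠ 1 := by
    have key : ∀ (k : ℕ) (g₀ : H), g₀⁻¹ * z ^ k * g₀ ∈ (P : Subgroup H) →
        g₀⁻¹ * z ^ k * g₀ = z ^ k := by
      intro k g₀ _
      have hzk : z ^ k ∈ Subgroup.center H := Subgroup.pow_mem _ hzc k
      rw [mul_assoc, ← Subgroup.mem_center_iff.1 hzk g₀, inv_mul_cancel_left]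
    have e := MonoidHom.transfer_eq_pow ϕ z key
    intro hV
    have e' : ϕ ⟨z ^ (P : Subgroup H).index, MonoidHom.transfer_eq_pow_aux z key⟩ = 1 :=
      e.symm.trans hV
    have hzi : z ^ (P : Subgroup H).index = 1 := congrArg Subtype.val (hϕinj _ e')
    have hodd : (P : Subgroup H).index % 2 = 1 := by omega
    have hzz : z ^ (P : Subgroup H).index = z := by
      conv_lhs => rw [← Nat.div_add_mod (P : Subgroup H).index 2, hodd, pow_add, pow_mul, hz2,
        one_pow, one_mul, pow_one]
    exact hz1 (hzz.symm.trans hzi)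
  have hA2 : ∀ v : Abelianization ↥(P : Subgroup H), v ^ 2 = 1 := by
    intro v
    obtain ⟨p, rfl⟩ := QuotientGroup.mk_surjective v
    have h1 : p ^ 2 = 1 := Subtype.ext (hexp _ p.2)
    show ϕ p ^ 2 = 1
    rw [← map_pow, h1, map_one]
  have hmapK : (V.ker).map π = ⊤ := by
    rw [eq_top_iff, ← hG3, Subgroup.closure_le]
    intro g hg
    have hg3 : g ^ 3 = 1 := hg
    obtain ⟨c, rfl⟩ := hπ g
    refine ⟨c ^ 4, ?_, ?_⟩
    · rw [SetLike.mem_coe, MonoidHom.mem_ker]
      have hc3 : c ^ 3 ∈ Subgroup.center H := by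
        rw [← hker, MonoidHom.mem_ker, map_pow]
        exact hg3
      have hc12 : (c ^ 4) ^ 3 = 1 := by
        rw [← pow_mul, show 4 * 3 = 3 * (2 * 2) from rfl, pow_mul, pow_mul, hcen2 _ hc3, one_pow]
      have h3 : V (c ^ 4) ^ 3 = 1 := by rw [← map_pow, hc12, map_one]
      have h2 := hA2 (V (c ^ 4))
      calc V (c ^ 4) = V (c ^ 4) ^ 3 * (V (c ^ 4) ^ 2)⁻¹ := by group
        _ = 1 := by rw [h3, h2, inv_one, mul_one]
    · rw [map_pow, show 4 = 3 + 1 from rfl, pow_add, hg3, one_mul, pow_one]
  apply hns V.ker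
  apply Subgroup.isComplement'_of_disjoint_and_mul_eq_univ
  · rw [Subgroup.disjoint_def]
    intro w hwc hwk
    rcases hall w hwc with rfl | rfl
    · rfl
    · exact absurd (MonoidHom.mem_ker.1 hwk) hVz
  · rw [Set.eq_univ_iff_forall]
    intro h
    have hmem : π h ∈ (V.ker).map π := by rw [hmapK]; exact Subgroup.mem_top _
    obtain ⟨k, hk, hkh⟩ := hmem
    refine Set.mem_mul.2 ⟨h * k⁻¹, ?_, k, hk, by group⟩
    rw [SetLike.mem_coe, ← hker, MonoidHom.mem_ker, map_mul, map_inv, hkh, mul_inv_cancel]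

/-- the case of a cyclic quotient: the group is commutative of order two -/
theorem eq_of_cyclic_quotient {H G : Type*} [Group H] [Group G] [IsCyclic G]
    (hZ : Nat.card (Subgroup.center H) = 2) (e : H ⧸ Subgroup.center H ≃* G) (x y : H)
    (hx : orderOf x = 2) (hy : orderOf y = 2) : x = y := by
  have hcyc : IsCyclic (H ⧸ Subgroup.center H) :=
    isCyclic_of_surjective e.symm.toMonoidHom e.symm.surjective
  have hcomm : ∀ a b : H, a * b = b * a :=
    commutative_of_cyclic_center_quotient (QuotientGroup.mk' (Subgroup.center H))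
      (by rw [QuotientGroup.ker_mk'])
  have hmem : ∀ w : H, w ∈ Subgroup.center H :=
    fun w => Subgroup.mem_center_iff.2 (fun g => hcomm g w)
  exact eq_of_orderOf_two_of_mem _ hZ (hmem x) (hmem y) hx hy

end Cfsg.Agent.Helper17.SchurCos
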