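import Mathlib
import Cfsg.Agent.Helper17.SchurCos.DCov
import Cfsg.Agent.Helper17.SchurCos.CovGen
import Cfsg.Agent.Helper17.SchurCos.An6EUp
import Cfsg.Agent.Helper17.SchurCos.An7EUp

/-!
# Involutions in the non-split double covers of the small alternating groups (helper17)

A finite non-split double cover of the alternating group of degree `n ≤ 7` has a single element
of order two: degrees up to 3 give commutative groups, degrees 4 and 5 are treated by transfer
(`SchurCos.DCov`), degrees 6 and 7 by the certificates of `SchurCos.An6EUp`, `SchurCos.An7EUp`.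
-/

set_option autoImplicit false

namespace Cfsg.Agent.Helper17.SchurCos

open Cfsg.Agent.Helper17.J1

/-- the cycle type of an element of order two of an alternating group of degree at most 7 -/
theorem alt_invol_cycleType {n : ℕ} (hn : n ≤ 7) (g : alternatingGroup (Fin n))
    (hg : orderOf g = 2) : (g : Equiv.Perm (Fin n)).cycleType = {2, 2} := by
  have ho : orderOf (g : Equiv.Perm (Fin n)) = 2 := by rw [Subgroup.orderOf_coe]; exact hg
  obtain ⟨k, hk⟩ := Equiv.Perm.cycleType_prime_order (σ := (g : Equiv.Perm (Fin n)))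
    (by rw [ho]; exact Nat.prime_two)
  rw [ho] at hk
  have hs := Equiv.Perm.sum_cycleType_le (g : Equiv.Perm (Fin n))
  rw [hk, Multiset.sum_replicate, smul_eq_mul, Fintype.card_fin] at hs
  have hsg := Equiv.Perm.sign_of_cycleType (g : Equiv.Perm (Fin n))
  rw [hk, Equiv.Perm.mem_alternatingGroup.1 g.2, Multiset.sum_replicate, Multiset.card_replicate,
    smul_eq_mul] at hsg
  have hk2 : k ≤ 2 := by omega
  interval_cases k
  · exact absurd hsg (by decide)
  · rw [hk]; rfl
  · exact absurd hsg (by decide)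

/-- the elements of order two of an alternating group of degree 6 or 7 are conjugate -/
theorem alt_invol_conj {n : ℕ} (h6 : 6 ≤ n) (hn : n ≤ 7) (u v : alternatingGroup (Fin n))
    (hu : orderOf u = 2) (hv : orderOf v = 2) : ∃ g, g * u * g⁻¹ = v := by
  have hcu := alt_invol_cycleType hn u hu
  have hcv := alt_invol_cycleType hn v hv
  have hc : IsConj (u : Equiv.Perm (Fin n)) (v : Equiv.Perm (Fin n)) :=
    Equiv.Perm.isConj_iff_cycleType_eq.2 (hcu.trans hcv.symm)
  have h4 : ({2, 2} : Multiset ℕ).sum = 4 := rfl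
  have hsupp : (u : Equiv.Perm (Fin n)).support.card + 2 ≤ Fintype.card (Fin n) := by
    rw [← Equiv.Perm.sum_cycleType, hcu, Fintype.card_fin, h4]
    omega
  exact isConj_iff.1 (alternatingGroup.isConj_of hc hsupp)

theorem conj_of_fixed {G : Type*} [Group G] (t : G)
    (h : ∀ v : G, v ≠ 1 → v ^ 2 = 1 → ∃ g : G, g * t * g⁻¹ = v)
    (u v : G) (hu1 : u ≠ 1) (hu2 : u ^ 2 = 1) (hv1 : v ≠ 1) (hv2 : v ^ 2 = 1) :
    ∃ g, g * u * g⁻¹ = v := by
  obtain ⟨gu, rfl⟩ := h u hu1 hu2
  obtain ⟨gv, rfl⟩ := h v hv1 hv2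
  exact ⟨gv * gu⁻¹, by group⟩

/-- the alternating groups are generated by elements of order three -/
theorem alt_closure_three (n : ℕ) :
    Subgroup.closure {g : alternatingGroup (Fin n) | g ^ 3 = 1} = ⊤ := by
  rw [eq_top_iff, ← alternatingGroup.closure_isThreeCycles_eq_top]
  apply Subgroup.closure_mono
  intro g hg
  have hg' : Equiv.Perm.IsThreeCycle (g : Equiv.Perm (Fin n)) := hg
  have h3 : (g : Equiv.Perm (Fin n)) ^ 3 = 1 := by
    rw [← hg'.orderOf]
    exact pow_orderOf_eq_one _
  exact Subtype.ext h3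

theorem A4_G1 : ∀ g : alternatingGroup (Fin 4), g ^ 2 = 1 ∨ g ^ 3 = 1 ∨ g ^ 5 = 1 := by
  decide +kernel

theorem A5_G1 : ∀ g : alternatingGroup (Fin 5), g ^ 2 = 1 ∨ g ^ 3 = 1 ∨ g ^ 5 = 1 := by
  decide +kernel

/-- a double transposition -/
def t4 : alternatingGroup (Fin 4) := ⟨Equiv.swap 0 1 * Equiv.swap 2 3, by
  rw [Equiv.Perm.mem_alternatingGroup]
  simp [Equiv.Perm.sign_mul, Equiv.Perm.sign_swap']⟩

/-- a double transposition -/
def t5 : alternatingGroup (Fin 5) := ⟨Equiv.swap 0 1 * Equiv.swap 2 3, by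
  rw [Equiv.Perm.mem_alternatingGroup]
  simp [Equiv.Perm.sign_mul, Equiv.Perm.sign_swap']⟩

theorem A4_conj : ∀ v : alternatingGroup (Fin 4), v ≠ 1 → v ^ 2 = 1 →
    ∃ g : alternatingGroup (Fin 4), g * t4 * g⁻¹ = v := by
  decide +kernel

set_option maxRecDepth 100000 in
theorem A5_conj : ∀ v : alternatingGroup (Fin 5), v ≠ 1 → v ^ 2 = 1 →
    ∃ g : alternatingGroup (Fin 5), g * t5 * g⁻¹ = v := by
  decide +kernel

theorem alt_cyclic {n : ℕ} (h : n ≤ 3) : IsCyclic (alternatingGroup (Fin n)) := by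
  have h1 : ∀ m : ℕ, Fintype.card (alternatingGroup (Fin m)) = 1 →
      IsCyclic (alternatingGroup (Fin m)) := by
    intro m hm
    have : Subsingleton (alternatingGroup (Fin m)) :=
      Fintype.card_le_one_iff_subsingleton.1 hm.le
    exact isCyclic_of_subsingleton
  interval_cases n
  · exact h1 0 (by decide)
  · exact h1 1 (by decide)
  · exact h1 2 (by decide)
  · have : Fact (Nat.Prime 3) := ⟨Nat.prime_three⟩
    exact isCyclic_of_prime_card (p := 3) (by rw [Nat.card_eq_fintype_card]; decide)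

theorem A6_perfect' : commutator ↥(alternatingGroup (Fin 6)) = ⊤ := by
  rw [eq_top_iff, ← An6.hgen, Subgroup.closure_le]
  rintro g (rfl | rfl)
  · have h := cev_mem_commutator An6.gA An6.gB An6.CAL
    rw [← ev_cw, An6.F2.1] at h
    exact h
  · have h := cev_mem_commutator An6.gA An6.gB An6.CBL
    rw [← ev_cw, An6.F2.2] at h
    exact h

theorem A7_perfect : commutator ↥(alternatingGroup (Fin 7)) = ⊤ := by
  rw [eq_top_iff, ← An7.hgen, Subgroup.closure_le]
  rintro g (rfl | rfl)
  · have h := cev_mem_commutator An7.gA An7.gB An7.CAL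
    rw [← ev_cw, An7.F2.1] at h
    exact h
  · have h := cev_mem_commutator An7.gA An7.gB An7.CBL
    rw [← ev_cw, An7.F2.2] at h
    exact h

set_option maxRecDepth 100000 in
theorem t6_facts : ev An6.gA An6.gB An6E.hwL ^ 2 ≠ 1 ∧ ev An6.gA An6.gB An6E.hwL ^ 4 = 1 := by
  decide +kernel

set_option maxRecDepth 100000 in
theorem t7_facts : ev An7.gA An7.gB An7E.hwL ^ 2 ≠ 1 ∧ ev An7.gA An7.gB An7E.hwL ^ 4 = 1 := by
  decide +kernel

/-- **Involutions in the non-split double covers of the alternating groups of degree at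
most 7.** -/
theorem double_cover_invol_unique (n : ℕ) (H : Type) [Group H] [Finite H] (hn : n ≤ 7)
    (hcov : Cfsg.IsNonsplitDoubleCover H (alternatingGroup (Fin n))) (x y : H)
    (hx : orderOf x = 2) (hy : orderOf y = 2) : x = y := by
  obtain ⟨hZ, ⟨e⟩, hns⟩ := hcov
  let π : H →* alternatingGroup (Fin n) :=
    e.toMonoidHom.comp (QuotientGroup.mk' (Subgroup.center H))
  have hπ : Function.Surjective π := e.surjective.comp (QuotientGroup.mk'_surjective _)
  have hker : π.ker = Subgroup.center H := by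
    ext h
    rw [MonoidHom.mem_ker]
    show e (QuotientGroup.mk' _ h) = 1 ↔ _
    rw [MulEquiv.map_eq_one_iff]
    exact QuotientGroup.eq_one_iff h
  have : Fact (Nat.Prime 2) := ⟨Nat.prime_two⟩
  rcases (show n ≤ 3 ∨ n = 4 ∨ n = 5 ∨ n = 6 ∨ n = 7 by omega) with h | rfl | rfl | rfl | rfl
  · have := alt_cyclic h
    exact eq_of_cyclic_quotient hZ e x y hx hy
  · have hcen : ∀ w : H, orderOf w = 2 → w ∈ Subgroup.center H := fun w hw =>
      central_invol_of_transfer π hπ hker hZ hns A4_G1 (conj_of_fixed t4 A4_conj)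
        (alt_closure_three 4) w hw
    exact eq_of_orderOf_two_of_mem _ hZ (hcen x hx) (hcen y hy) hx hy
  · have hcen : ∀ w : H, orderOf w = 2 → w ∈ Subgroup.center H := fun w hw =>
      central_invol_of_transfer π hπ hker hZ hns A5_G1 (conj_of_fixed t5 A5_conj)
        (alt_closure_three 5) w hw
    exact eq_of_orderOf_two_of_mem _ hZ (hcen x hx) (hcen y hy) hx hy
  · have hst : Cfsg.IsStemExtension π := stem_of_nonsplit A6_perfect' hZ π hπ hker hns
    obtain ⟨f1, f2⟩ := t6_facts
    have ht2 : (ev An6.gA An6.gB An6E.hwL ^ 2) ^ 2 = 1 := by rw [← pow_mul]; exact f2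
    have hto : orderOf (ev An6.gA An6.gB An6E.hwL ^ 2) = 2 := orderOf_eq_prime ht2 f1
    have hcen : ∀ w : H, orderOf w = 2 → w ∈ Subgroup.center H := fun w hw =>
      central_invol_of_cyclic π hπ hker hZ (ev An6.gA An6.gB An6E.hwL ^ 2)
        (Subgroup.zpowers (ev An6.gA An6.gB An6E.hwL))
        (Subgroup.pow_mem _ (Subgroup.mem_zpowers _) 2) f1
        (fun a b ha hb ha2 hb2 => An6E.invol_unique H π hst a b ha hb ha2 hb2)
        (fun u hu1 hu2 => alt_invol_conj (by norm_num) (by norm_num) u _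
          (orderOf_eq_prime hu2 hu1) hto) w hw
    exact eq_of_orderOf_two_of_mem _ hZ (hcen x hx) (hcen y hy) hx hy
  · have hst : Cfsg.IsStemExtension π := stem_of_nonsplit A7_perfect hZ π hπ hker hns
    obtain ⟨f1, f2⟩ := t7_facts
    have ht2 : (ev An7.gA An7.gB An7E.hwL ^ 2) ^ 2 = 1 := by rw [← pow_mul]; exact f2
    have hto : orderOf (ev An7.gA An7.gB An7E.hwL ^ 2) = 2 := orderOf_eq_prime ht2 f1
    have hcen : ∀ w : H, orderOf w = 2 → w ∈ Subgroup.center H := fun w hw =>
      central_invol_of_cyclic π hπ hker hZ (ev An7.gA An7.gB An7E.hwL ^ 2)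
        (Subgroup.zpowers (ev An7.gA An7.gB An7E.hwL))
        (Subgroup.pow_mem _ (Subgroup.mem_zpowers _) 2) f1
        (fun a b ha hb ha2 hb2 => An7E.invol_unique H π hst a b ha hb ha2 hb2)
        (fun u hu1 hu2 => alt_invol_conj (by norm_num) (by norm_num) u _
          (orderOf_eq_prime hu2 hu1) hto) w hw
    exact eq_of_orderOf_two_of_mem _ hZ (hcen x hx) (hcen y hy) hx hy

end Cfsg.Agent.Helper17.SchurCos
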